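import Mathlib

/-!
Small helpers: explicit even permutations (3-cycles and double transpositions), and lifting even
permutations through a primitive action whose image is forced to contain the alternating group.
-/

set_option autoImplicit false

namespace Cfsg.Agent.Lib.Geo

open Equiv

variable {Ω : Type*} [Fintype Ω] [DecidableEq Ω]

/-- The 3-cycle `x ↦ y ↦ w ↦ x` as an even permutation. -/
theorem exists_three_cycle {x y w : Ω} (hxy : x ≠ y) (hxw : x ≠ w) (hyw : y ≠ w) :
    ∃ σ : Perm Ω, Perm.sign σ = 1 ∧ σ x = y ∧ σ y = w ∧ σ w = x ∧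
      ∀ t, t ≠ x → t ≠ y → t ≠ w → σ t = t := by
  refine ⟨swap x y * swap y w, ?_, ?_, ?_, ?_, ?_⟩
  · rw [map_mul, Perm.sign_swap hxy, Perm.sign_swap hyw]; rfl
  · simp [swap_apply_of_ne_of_ne hxy hxw]
  · simp [swap_apply_of_ne_of_ne hxw.symm hyw.symm]
  · simp
  · intro t h1 h2 h3
    simp [swap_apply_of_ne_of_ne h2 h3, swap_apply_of_ne_of_ne h1 h2]

/-- A double transposition as an even permutation. -/
theorem exists_double_transposition {x y u v : Ω} (hxy : x ≠ y) (huv : u ≠ v)
    (hxu : x ≠ u) (hxv : x ≠ v) (hyu : y ≠ u) (hyv : y ≠ v) :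
    ∃ σ : Perm Ω, Perm.sign σ = 1 ∧ σ x = y ∧ σ y = x ∧ σ u = v ∧ σ v = u ∧
      ∀ t, t ≠ x → t ≠ y → t ≠ u → t ≠ v → σ t = t := by
  refine ⟨swap x y * swap u v, ?_, ?_, ?_, ?_, ?_, ?_⟩
  · rw [map_mul, Perm.sign_swap hxy, Perm.sign_swap huv]; rfl
  · simp [swap_apply_of_ne_of_ne hxu hxv]
  · simp [swap_apply_of_ne_of_ne hyu hyv]
  · simp [swap_apply_of_ne_of_ne hxv.symm hyv.symm]
  · simp [swap_apply_of_ne_of_ne hxu.symm hyu.symm]
  · intro t h1 h2 h3 h4
    simp [swap_apply_of_ne_of_ne h3 h4, swap_apply_of_ne_of_ne h1 h2]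

/-- If every preprimitive subgroup of `Perm (Fin n)` contains the alternating group, then even
permutations of a set of size `n` lift through any preprimitive action. -/
theorem lift_even_of_preprimitive {G : Type*} [Group G] [MulAction G Ω] {n : ℕ} (e : Ω ≃ Fin n)
    (hprim : MulAction.IsPreprimitive G Ω)
    (hA : ∀ P : Subgroup (Perm (Fin n)), MulAction.IsPreprimitive P (Fin n) →
      alternatingGroup (Fin n) ≤ P)
    (σ : Perm Ω) (hσ : Perm.sign σ = 1) : ∃ g : G, ∀ ω, g • ω = σ ω := by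
  let ρ : G →* Perm (Fin n) := (e.permCongrHom).toMonoidHom.comp (MulAction.toPermHom G Ω)
  let P : Subgroup (Perm (Fin n)) := ρ.range
  have hP : MulAction.IsPreprimitive P (Fin n) := by
    let f : G → P := fun g => ⟨ρ g, g, rfl⟩
    have hf : Function.Surjective f := by
      rintro ⟨_, g, rfl⟩; exact ⟨g, rfl⟩
    let e' : Ω →ₑ[f] Fin n :=
      { toFun := e
        map_smul' := by
          intro g x
          change e (g • x) = (ρ g) (e x)
          simp [ρ, Equiv.permCongrHom, Equiv.permCongr_apply] }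
    have he' : Function.Bijective e' := e.bijective
    exact (MulAction.isPreprimitive_congr hf he').mp hprim
  have hmem : e.permCongr σ ∈ alternatingGroup (Fin n) := by
    rw [Equiv.Perm.mem_alternatingGroup]
    rw [Equiv.Perm.sign_permCongr]; exact hσ
  obtain ⟨g, hg⟩ := hA P hP hmem
  refine ⟨g, fun ω => ?_⟩
  have := congrArg (fun τ : Perm (Fin n) => τ (e ω)) hg
  simpa [ρ, Equiv.permCongrHom, Equiv.permCongr_apply] using this

end Cfsg.Agent.Lib.Geo
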