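import Mathlib
import Cfsg.Prelude.Def_GeometricClasses

set_option autoImplicit false

namespace Cfsg.Agent.Lib.Geo

open scoped Matrix
open Matrix

variable {ι : Type} [Fintype ι] [DecidableEq ι] {F : Type*} [Field F]

theorem mat_ext {A B : Matrix ι ι F} (h : ∀ v : ι → F, A *ᵥ v = B *ᵥ v) : A = B :=
  Matrix.toLin'.injective (LinearMap.ext h)

/-- a functional over a field. -/
theorem exists_functional_abstract {E' V' : Type*} [Field E'] [AddCommGroup V'] [Module E' V']
    (W : Submodule E' V') {e : V'} (he : e ∉ W) :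
    ∃ f : V' →ₗ[E'] E', f e = 1 ∧ ∀ w ∈ W, f w = 0 := by
  obtain ⟨f, hf, hW⟩ := Submodule.exists_dual_map_eq_bot_of_notMem he inferInstance
  refine ⟨(f e)⁻¹ • f, by simp [hf], fun w hw => ?_⟩
  have : f w = 0 := by
    have : f w ∈ W.map f := Submodule.mem_map_of_mem hw
    rwa [hW, Submodule.mem_bot] at this
  simp [this]

/-- a functional with values in a field subalgebra of the matrices. -/
theorem exists_E_functional [Nonempty ι] (E : Subalgebra F (Matrix ι ι F))
    (hcomm : ∀ x ∈ E, ∀ y ∈ E, x * y = y * x)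
    (hinv : ∀ x ∈ E, x ≠ 0 → ∃ y ∈ E, x * y = 1)
    (W : Submodule F (ι → F)) (hW : ∀ x ∈ E, ∀ w ∈ W, x *ᵥ w ∈ W)
    {e : ι → F} (he : e ∉ W) :
    ∃ φ : (ι → F) → Matrix ι ι F, (∀ v, φ v ∈ E) ∧ (∀ v w, φ (v + w) = φ v + φ w) ∧
      (∀ x ∈ E, ∀ v, φ (x *ᵥ v) = x * φ v) ∧ φ e = 1 ∧ ∀ w ∈ W, φ w = 0 := by
  have hfield : IsField E := by
    refine ⟨⟨0, 1, fun h => ?_⟩, fun a b => Subtype.ext (hcomm a a.2 b b.2), fun {a} ha => ?_⟩
    · exact zero_ne_one (congrArg Subtype.val h)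
    · obtain ⟨y, hy, hay⟩ := hinv a a.2 (fun h => ha (Subtype.ext h))
      exact ⟨⟨y, hy⟩, Subtype.ext hay⟩
  letI instE : Field E := hfield.toField
  letI instM : Module E (ι → F) :=
    { smul := fun x v => x.1 *ᵥ v
      one_smul := fun v => Matrix.one_mulVec v
      mul_smul := fun x y v => (Matrix.mulVec_mulVec v x.1 y.1).symm
      smul_zero := fun x => Matrix.mulVec_zero x.1
      smul_add := fun x v w => Matrix.mulVec_add x.1 v w
      add_smul := fun x y v => Matrix.add_mulVec x.1 y.1 v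
      zero_smul := fun v => Matrix.zero_mulVec v }
  let W' : Submodule E (ι → F) :=
    { carrier := W
      add_mem' := fun h1 h2 => W.add_mem h1 h2
      zero_mem' := W.zero_mem
      smul_mem' := fun x _ hw => hW x.1 x.2 _ hw }
  obtain ⟨f, hf, hfW⟩ := exists_functional_abstract W' (e := e) he
  refine ⟨fun v => (f v).1, fun v => (f v).2, fun v w => ?_, fun x hx v => ?_, ?_, fun w hw => ?_⟩
  · exact congrArg Subtype.val (f.map_add v w)
  · exact congrArg Subtype.val (f.map_smul (⟨x, hx⟩ : E) v)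
  · show (f e).1 = 1
    rw [hf]
    rfl
  · show (f w).1 = 0
    rw [hfW w hw]
    rfl

theorem det_one_add_of_sq_zero [Fintype F] {N : Matrix ι ι F} (hN : N * N = 0) :
    (1 + N).det = 1 := by
  obtain ⟨p, hp⟩ := CharP.exists F
  haveI := hp
  have hpp : p.Prime := by
    rcases CharP.char_is_prime_or_zero F p with h | h
    · exact h
    · subst h
      exact absurd (CharP.charP_to_charZero F) (by
        intro hz
        exact not_finite F)
  haveI : Fact p.Prime := ⟨hpp⟩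
  by_cases hne : Nonempty ι
  · haveI : CharP (Matrix ι ι F) p := Matrix.charP p
    have h1 : (1 + N) ^ p = 1 := by
      rw [add_pow_char_of_commute p (Commute.one_left N), one_pow]
      have : N ^ p = 0 := by
        obtain ⟨m, hm⟩ : ∃ m, p = 2 + m := ⟨p - 2, by have := hpp.two_le; omega⟩
        rw [hm, pow_add, pow_two, hN, zero_mul]
      rw [this, add_zero]
    have h2 := congrArg Matrix.det h1
    rw [Matrix.det_pow, Matrix.det_one] at h2
    have h3 : ((1 + N).det - 1) ^ p = 0 := by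
      rw [sub_pow_char, h2, one_pow, sub_self]
    exact sub_eq_zero.1 (pow_eq_zero_iff hpp.ne_zero |>.1 h3)
  · haveI : IsEmpty ι := not_nonempty_iff.1 hne
    exact Matrix.det_isEmpty

/-- the key construction: an `E`-linear transvection not normalising the larger field `D`. -/
theorem exists_transv [Fintype F] (E D : Subalgebra F (Matrix ι ι F)) (hED : E ≤ D)
    (hcomm : ∀ x ∈ D, ∀ y ∈ D, x * y = y * x)
    (hinv : ∀ x ∈ D, x ≠ 0 → ∃ y ∈ D, x * y = 1)
    (hEinv : ∀ x ∈ E, x ≠ 0 → ∃ y ∈ E, x * y = 1)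
    (hne : ∃ k ∈ D, k ∉ E) (hlt : Module.finrank F D < Fintype.card ι) :
    ∃ t : GL ι F, t ∈ Cfsg.Geo.specialLinear ι F ∧ t ∈ Cfsg.Geo.subalgebraNormalizer E ∧
      t ∉ Cfsg.Geo.subalgebraNormalizer D := by
  have hι : Nonempty ι := Fintype.card_pos_iff.1 (by omega)
  obtain ⟨i⟩ := hι
  haveI : Nonempty ι := ⟨i⟩
  let e₁ : ι → F := Pi.single i 1
  have he₁ : e₁ ≠ 0 := by
    intro h
    have := congrFun h i
    simp [e₁] at this
  let ev : D →ₗ[F] (ι → F) :=
    { toFun := fun x => x.1 *ᵥ e₁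
      map_add' := fun x y => Matrix.add_mulVec _ _ _
      map_smul' := fun c x => by
        simp [Matrix.smul_mulVec] }
  let W : Submodule F (ι → F) := LinearMap.range ev
  have hWne : W ≠ ⊤ := by
    intro h
    have h1 : Module.finrank F W ≤ Module.finrank F D := LinearMap.finrank_range_le ev
    rw [h, finrank_top, Module.finrank_fintype_fun_eq_card] at h1
    omega
  obtain ⟨e₂, he₂⟩ : ∃ e₂, e₂ ∉ W := by
    by_contra hcon
    push Not at hcon
    exact hWne (eq_top_iff.2 fun x _ => hcon x)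
  have hW : ∀ x ∈ E, ∀ w ∈ W, x *ᵥ w ∈ W := by
    rintro x hx _ ⟨d, rfl⟩
    refine ⟨⟨x * d.1, D.mul_mem (hED hx) d.2⟩, ?_⟩
    show (x * d.1) *ᵥ e₁ = x *ᵥ (d.1 *ᵥ e₁)
    rw [Matrix.mulVec_mulVec]
  have he₁W : e₁ ∈ W := ⟨1, by show (1 : Matrix ι ι F) *ᵥ e₁ = e₁; simp⟩
  obtain ⟨φ, hφE, hφadd, hφmul, hφe, hφW⟩ := exists_E_functional E
    (fun x hx y hy => hcomm x (hED hx) y (hED hy)) hEinv W hW he₂
  have hsc : ∀ c : F, c • (1 : Matrix ι ι F) ∈ E := fun c => by
    rw [← Algebra.algebraMap_eq_smul_one]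
    exact E.algebraMap_mem c
  let Nl : (ι → F) →ₗ[F] (ι → F) :=
    { toFun := fun v => φ v *ᵥ e₁
      map_add' := fun v w => by rw [hφadd, Matrix.add_mulVec]
      map_smul' := fun c v => by
        have : c • v = (c • (1 : Matrix ι ι F)) *ᵥ v := by
          rw [Matrix.smul_mulVec, Matrix.one_mulVec]
        rw [this, hφmul _ (hsc c), Matrix.smul_mul, Matrix.smul_mulVec, one_mul]
        rfl }
  let N : Matrix ι ι F := LinearMap.toMatrix' Nl
  have hNv : ∀ v, N *ᵥ v = φ v *ᵥ e₁ := fun v => by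
    simp only [N]
    rw [LinearMap.toMatrix'_mulVec]
    rfl
  have hN0 : N * N = 0 := by
    apply mat_ext
    intro v
    rw [← Matrix.mulVec_mulVec, hNv v, hNv, hφmul _ (hφE v), hφW e₁ he₁W, mul_zero,
      Matrix.zero_mulVec, Matrix.zero_mulVec]
  have hNE : ∀ x ∈ E, x * N = N * x := by
    intro x hx
    apply mat_ext
    intro v
    rw [← Matrix.mulVec_mulVec, ← Matrix.mulVec_mulVec, hNv, hNv, hφmul _ hx, Matrix.mulVec_mulVec]
  have hNe₁ : N *ᵥ e₁ = 0 := by rw [hNv, hφW e₁ he₁W, Matrix.zero_mulVec]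
  have hNW : ∀ w ∈ W, N *ᵥ w = 0 := by
    intro w hw
    rw [hNv, hφW w hw, Matrix.zero_mulVec]
  have hNe₂ : N *ᵥ e₂ = e₁ := by rw [hNv, hφe, Matrix.one_mulVec]
  let t : GL ι F :=
    { val := 1 + N
      inv := 1 - N
      val_inv := by
        rw [mul_sub, add_mul, add_mul, one_mul, mul_one, one_mul, hN0]
        abel
      inv_val := by
        rw [sub_mul, mul_add, mul_add, one_mul, mul_one, one_mul, hN0]
        abel }
  have htv : (t : Matrix ι ι F) = 1 + N := rfl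
  have hti : ((t⁻¹ : GL ι F) : Matrix ι ι F) = 1 - N := rfl
  have hcomm_t : ∀ x ∈ E, (t : Matrix ι ι F) * x = x * t := by
    intro x hx
    rw [htv, add_mul, mul_add, one_mul, mul_one, hNE x hx]
  have hfield : ∀ d ∈ D, d *ᵥ e₁ = 0 → d = 0 := by
    intro d hd h0
    by_contra hd0
    obtain ⟨y, hy, hdy⟩ := hinv d hd hd0
    apply he₁
    have h1 : y * d = 1 := by rw [hcomm y hy d hd, hdy]
    calc e₁ = (y * d) *ᵥ e₁ := by rw [h1, Matrix.one_mulVec]
      _ = y *ᵥ (d *ᵥ e₁) := (Matrix.mulVec_mulVec _ _ _).symm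
      _ = 0 := by rw [h0, Matrix.mulVec_zero]
  refine ⟨t, ?_, ?_, ?_⟩
  · rw [Cfsg.Geo.specialLinear, MonoidHom.mem_ker]
    apply Units.ext
    show Matrix.det (t : Matrix ι ι F) = 1
    rw [htv, det_one_add_of_sq_zero hN0]
  · intro k
    constructor
    · intro hk
      have : (t : Matrix ι ι F) * k * ((t⁻¹ : GL ι F) : Matrix ι ι F) = k := by
        rw [hcomm_t k hk, mul_assoc, Units.mul_inv, mul_one]
      rw [this]
      exact hk
    · intro hk
      have h1 := hcomm_t _ hk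
      have h2 : (t : Matrix ι ι F) * k * ((t⁻¹ : GL ι F) : Matrix ι ι F) * t = t * k := by
        rw [mul_assoc, Units.inv_mul, mul_one]
      rw [h2] at h1
      have h3 : (t : Matrix ι ι F) * k * ((t⁻¹ : GL ι F) : Matrix ι ι F) = k :=
        (Units.mul_right_inj t).1 h1
      rw [h3] at hk
      exact hk
  · intro ht
    obtain ⟨k₀, hk₀D, hk₀E⟩ := hne
    have hk' : (t : Matrix ι ι F) * k₀ * ((t⁻¹ : GL ι F) : Matrix ι ι F) ∈ D := (ht k₀).1 hk₀D
    have hd : (t : Matrix ι ι F) * k₀ * ((t⁻¹ : GL ι F) : Matrix ι ι F) - k₀ ∈ D :=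
      D.sub_mem hk' hk₀D
    have hk₀W : k₀ *ᵥ e₁ ∈ W := ⟨⟨k₀, hk₀D⟩, rfl⟩
    have h0 : ((t : Matrix ι ι F) * k₀ * ((t⁻¹ : GL ι F) : Matrix ι ι F) - k₀) *ᵥ e₁ = 0 := by
      rw [Matrix.sub_mulVec, ← Matrix.mulVec_mulVec, ← Matrix.mulVec_mulVec, hti, Matrix.sub_mulVec,
        Matrix.one_mulVec, hNe₁, sub_zero, htv, Matrix.add_mulVec, Matrix.one_mulVec,
        hNW _ hk₀W, add_zero, sub_self]
    have h1 := sub_eq_zero.1 (hfield _ hd h0)
    -- so `t` commutes with `k₀`
    have h2 : (t : Matrix ι ι F) * k₀ = k₀ * t := by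
      calc (t : Matrix ι ι F) * k₀
          = (t : Matrix ι ι F) * k₀ * ((t⁻¹ : GL ι F) : Matrix ι ι F) * t := by
            rw [mul_assoc _ _ (t : Matrix ι ι F), Units.inv_mul, mul_one]
        _ = k₀ * t := by rw [h1]
    have h3 : N * k₀ = k₀ * N := by
      rw [htv, add_mul, mul_add, one_mul, mul_one] at h2
      exact add_left_cancel h2
    have h4 : (k₀ - φ (k₀ *ᵥ e₂)) *ᵥ e₁ = 0 := by
      rw [Matrix.sub_mulVec, ← hNv (k₀ *ᵥ e₂), Matrix.mulVec_mulVec, h3, ← Matrix.mulVec_mulVec,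
        hNe₂, sub_self]
    have h5 := sub_eq_zero.1 (hfield _ (D.sub_mem hk₀D (hED (hφE _))) h4)
    apply hk₀E
    rw [h5]
    exact hφE _

/-- a generator of the multiplicative group of a finite field subalgebra. -/
theorem exists_gen [Fintype F] (K : Subalgebra F (Matrix ι ι F)) [Nonempty ι]
    (hcomm : ∀ x ∈ K, ∀ y ∈ K, x * y = y * x)
    (hinv : ∀ x ∈ K, x ≠ 0 → ∃ y ∈ K, x * y = 1) :
    ∃ w ∈ K, ∀ a b : ℕ, w ^ a = w ^ b ↔
      a ≡ b [MOD (Fintype.card F ^ Module.finrank F K - 1)] := by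
  classical
  haveI : Fintype K := Fintype.ofFinite K
  have hcard : Fintype.card K = Fintype.card F ^ Module.finrank F K :=
    Module.card_eq_pow_finrank (K := F) (V := K)
  have hfield : IsField K := by
    refine ⟨⟨0, 1, fun h => ?_⟩, fun a b => Subtype.ext (hcomm a a.2 b b.2), fun {a} ha => ?_⟩
    · exact zero_ne_one (congrArg Subtype.val h)
    · obtain ⟨y, hy, hay⟩ := hinv a a.2 (fun h => ha (Subtype.ext h))
      exact ⟨⟨y, hy⟩, Subtype.ext hay⟩
  let coeH : K →* Matrix ι ι F := K.val.toRingHom.toMonoidHom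
  letI instK : Field K := hfield.toField
  obtain ⟨g, hg⟩ := IsCyclic.exists_generator (α := Kˣ)
  have hord : orderOf g = Fintype.card F ^ Module.finrank F K - 1 := by
    rw [orderOf_eq_card_of_forall_mem_zpowers hg, Nat.card_eq_fintype_card, Fintype.card_units, hcard]
  refine ⟨((g : K) : Matrix ι ι F), ((g : K)).2, fun a b => ?_⟩
  rw [← hord, ← pow_eq_pow_iff_modEq]
  have hpow : ∀ m : ℕ, ((g : K) : Matrix ι ι F) ^ m = (((g ^ m : Kˣ) : K) : Matrix ι ι F) := by
    intro m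
    induction m with
    | zero => simp
    | succ m ih =>
      rw [pow_succ, ih, pow_succ]
      rfl
  rw [hpow, hpow]
  constructor
  · intro h
    exact Units.ext (Subtype.ext h)
  · intro h
    rw [h]

end Cfsg.Agent.Lib.Geo
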