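import Mathlib
import Cfsg.Agent.Lib.Geo.Partition

set_option autoImplicit false

/-! Even permutations preserving a uniform partition: primitivity of proper overgroups,
maximality in the alternating group (except for `n = 8`, `a = 2`). -/

namespace Cfsg.Agent.Lib.Geo

open Equiv Equiv.Perm MulAction
open scoped Pointwise

set_option linter.unusedSectionVars false

variable {Ω : Type*} [Fintype Ω] [DecidableEq Ω] {b : ℕ}

/-- Even permutations preserving the partition. -/
abbrev evenStab (f : Ω → Fin b) : Subgroup (Equiv.Perm Ω) := partStab f ⊓ alternatingGroup Ω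

theorem swap_mul_swap_mem_alt {s t s' t' : Ω} (h1 : s ≠ t) (h2 : s' ≠ t') :
    Equiv.swap s t * Equiv.swap s' t' ∈ alternatingGroup Ω := by
  rw [Equiv.Perm.mem_alternatingGroup, map_mul, Equiv.Perm.sign_swap h1, Equiv.Perm.sign_swap h2]
  decide

theorem swap_mul_swap_mem_evenStab {f : Ω → Fin b} {s t s' t' : Ω} (h1 : s ≠ t) (h2 : s' ≠ t')
    (h : f s = f t) (h' : f s' = f t') : Equiv.swap s t * Equiv.swap s' t' ∈ evenStab f :=
  ⟨(partStab f).mul_mem (swap_mem_partStab h) (swap_mem_partStab h'), swap_mul_swap_mem_alt h1 h2⟩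

/-- Parity adjustment by a swap inside a fibre. -/
theorem parity_fix {f : Ω → Fin b} {h : Equiv.Perm Ω} (hh : h ∈ partStab f) {s t : Ω} (hst : s ≠ t)
    (hf : f s = f t) : ∃ h' ∈ evenStab f, ∀ w, h w ≠ s → h w ≠ t → h' w = h w := by
  by_cases hs : Equiv.Perm.sign h = 1
  · exact ⟨h, ⟨hh, hs⟩, fun _ _ _ => rfl⟩
  · refine ⟨Equiv.swap s t * h, ⟨(partStab f).mul_mem (swap_mem_partStab hf) hh, ?_⟩, fun w h1 h2 => ?_⟩
    · rcases Int.units_eq_one_or (Equiv.Perm.sign h) with h3 | h3
      · exact absurd h3 hs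
      · show _ ∈ alternatingGroup Ω
        rw [Equiv.Perm.mem_alternatingGroup, map_mul, Equiv.Perm.sign_swap hst, h3]
        decide
    · simp [Equiv.swap_apply_of_ne_of_ne h1 h2]

section
variable {a : ℕ} {f : Ω → Fin b} {g : Ω → Fin 2}

theorem exists_pair_fibre (ha : 2 ≤ a) (hf : ∀ i : Fin b, Nat.card {x : Ω // f x = i} = a)
    (i : Fin b) : ∃ s t, s ≠ t ∧ f s = i ∧ f t = i := by
  have hnt : Nontrivial {x : Ω // f x = i} := by
    rw [← Finite.one_lt_card_iff_nontrivial, hf]; omega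
  obtain ⟨⟨x, hx⟩, ⟨y, hy⟩, hxy⟩ := exists_pair_ne {x : Ω // f x = i}
  exact ⟨x, y, fun h => hxy (Subtype.ext h), hx, hy⟩

theorem exists_triple_fibre (ha : 3 ≤ a) (hf : ∀ i : Fin b, Nat.card {x : Ω // f x = i} = a)
    (i : Fin b) : ∃ s t u, s ≠ t ∧ s ≠ u ∧ t ≠ u ∧ f s = i ∧ f t = i ∧ f u = i := by
  have h2 : 2 < Fintype.card {x : Ω // f x = i} := by
    rw [← Nat.card_eq_fintype_card, hf]; omega
  obtain ⟨⟨x, hx⟩, ⟨y, hy⟩, ⟨z, hz⟩, hxy, hxz, hyz⟩ := Fintype.two_lt_card_iff.1 h2
  exact ⟨x, y, z, fun h => hxy (Subtype.ext h), fun h => hxz (Subtype.ext h),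
    fun h => hyz (Subtype.ext h), hx, hy, hz⟩

/-- Two points in a fibre, avoiding two given points in different fibres. -/
theorem exists_pair_avoid (ha : 2 ≤ a) (hf : ∀ i : Fin b, Nat.card {x : Ω // f x = i} = a)
    (h3 : 3 ≤ a ∨ 3 ≤ b) {x z : Ω} (hxz : f x ≠ f z) :
    ∃ s t, s ≠ t ∧ f s = f t ∧ s ≠ x ∧ t ≠ x ∧ s ≠ z ∧ t ≠ z := by
  rcases h3 with h3 | h3
  · obtain ⟨s, t, u, h1, h2, h4, hs, ht, hu⟩ := exists_triple_fibre h3 hf (f x)
    have hne : ∀ w, f w = f x → w ≠ z := by
      rintro w hw rfl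
      exact hxz hw.symm
    by_cases hsx : s = x
    · subst hsx
      exact ⟨t, u, h4, ht.trans hu.symm, h1.symm, h2.symm, hne _ ht, hne _ hu⟩
    by_cases htx : t = x
    · subst htx
      exact ⟨s, u, h2, hs.trans hu.symm, hsx, h4.symm, hne _ hs, hne _ hu⟩
    · exact ⟨s, t, h1, hs.trans ht.symm, hsx, htx, hne _ hs, hne _ ht⟩
  · have : ∃ k : Fin b, k ≠ f x ∧ k ≠ f z := by
      by_contra hcon
      push Not at hcon
      have hsub : (Finset.univ : Finset (Fin b)) ⊆ {f x, f z} := by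
        intro k _
        by_cases hk : k = f x
        · simp [hk]
        · simp [hcon k hk]
      have := Finset.card_le_card hsub
      have h2 := Finset.card_le_two (a := f x) (b := f z)
      simp only [Finset.card_univ, Fintype.card_fin] at this
      omega
    obtain ⟨k, hk1, hk2⟩ := this
    obtain ⟨s, t, hst, hs, ht⟩ := exists_pair_fibre ha hf k
    refine ⟨s, t, hst, hs.trans ht.symm, ?_, ?_, ?_, ?_⟩ <;> (rintro rfl; simp_all)

theorem exists_mem_partStab_apply_eq (hf : ∀ i : Fin b, Nat.card {x : Ω // f x = i} = a)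
    (p q : Ω) : ∃ h ∈ partStab f, h p = q := by
  obtain ⟨h₁, hh₁, hh₂, -⟩ := exists_lift a f hf (Equiv.swap (f p) (f q))
  have h3 : f (h₁ p) = f q := by rw [hh₂, Equiv.swap_apply_left]
  refine ⟨Equiv.swap (h₁ p) q * h₁, (partStab f).mul_mem (swap_mem_partStab h3) hh₁, ?_⟩
  simp

/-- The even partition stabilizer is transitive. -/
theorem evenStab_transitive (ha : 2 ≤ a) (hb : 2 ≤ b)
    (hf : ∀ i : Fin b, Nat.card {x : Ω // f x = i} = a) (p q : Ω) :
    ∃ h ∈ evenStab f, h p = q := by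
  obtain ⟨h, hh, hpq⟩ := exists_mem_partStab_apply_eq hf p q
  have hnt : Nontrivial (Fin b) := Fin.nontrivial_iff_two_le.2 hb
  obtain ⟨i, hi⟩ := exists_ne (f q)
  obtain ⟨s, t, hst, hs, ht⟩ := exists_pair_fibre ha hf i
  obtain ⟨h', hh', h3⟩ := parity_fix hh hst (hs.trans ht.symm)
  refine ⟨h', hh', ?_⟩
  rw [h3 p, hpq]
  · rw [hpq]; rintro rfl; exact hi hs.symm
  · rw [hpq]; rintro rfl; exact hi ht.symm

/-- Moving a point to a point outside the fibre of a fixed point. -/
theorem exists_fix_move_cross (ha : 2 ≤ a) (h3 : 3 ≤ a ∨ 3 ≤ b)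
    (hf : ∀ i : Fin b, Nat.card {x : Ω // f x = i} = a) {x y z : Ω} (hxy : f x ≠ f y)
    (hzx : f z ≠ f x) : ∃ h ∈ evenStab f, h x = x ∧ h y = z := by
  obtain ⟨h₁, hh₁, hh₂, hh₃⟩ := exists_lift a f hf (Equiv.swap (f y) (f z))
  have hx1 : h₁ x = x := hh₃ x (Equiv.swap_apply_of_ne_of_ne hxy (Ne.symm hzx))
  have hy1 : f (h₁ y) = f z := by rw [hh₂, Equiv.swap_apply_left]
  have hne1 : x ≠ h₁ y := by
    intro h; apply hzx; rw [← hy1, ← h]
  have hne2 : x ≠ z := by
    rintro rfl; exact hzx rfl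
  let h := Equiv.swap (h₁ y) z * h₁
  have hmem : h ∈ partStab f := (partStab f).mul_mem (swap_mem_partStab hy1) hh₁
  have hxx : h x = x := by
    simp only [h, Equiv.Perm.mul_apply, hx1]
    exact Equiv.swap_apply_of_ne_of_ne hne1 hne2
  have hyz : h y = z := by
    simp [h]
  obtain ⟨s, t, hst, hfst, hsx, htx, hsz, htz⟩ := exists_pair_avoid ha hf h3 (Ne.symm hzx)
  obtain ⟨h', hh', h5⟩ := parity_fix hmem hst hfst
  refine ⟨h', hh', ?_, ?_⟩
  · rw [h5 x (by rw [hxx]; exact hsx.symm) (by rw [hxx]; exact htx.symm), hxx]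
  · rw [h5 y (by rw [hyz]; exact hsz.symm) (by rw [hyz]; exact htz.symm), hyz]

/-- Moving a point within a fibre fixing a third point of that fibre. -/
theorem exists_fix_move_same (ha : 2 ≤ a) (hb : 2 ≤ b)
    (hf : ∀ i : Fin b, Nat.card {x : Ω // f x = i} = a) {x y z : Ω} (hxy : x ≠ y) (hxz : x ≠ z)
    (hfxy : f x = f y) (hfxz : f x = f z) : ∃ h ∈ evenStab f, h x = x ∧ h y = z := by
  have hnt : Nontrivial (Fin b) := Fin.nontrivial_iff_two_le.2 hb
  obtain ⟨i, hi⟩ := exists_ne (f x)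
  obtain ⟨s, t, hst, hs, ht⟩ := exists_pair_fibre ha hf i
  have hfyz : f y = f z := hfxy.symm.trans hfxz
  have hmem : Equiv.swap y z ∈ partStab f := swap_mem_partStab hfyz
  obtain ⟨h', hh', h5⟩ := parity_fix hmem hst (hs.trans ht.symm)
  have hx : Equiv.swap y z x = x := Equiv.swap_apply_of_ne_of_ne hxy hxz
  have hy : Equiv.swap y z y = z := Equiv.swap_apply_left _ _
  refine ⟨h', hh', ?_, ?_⟩
  · rw [h5 x, hx]
    · rw [hx]; rintro rfl; exact hi hs.symm
    · rw [hx]; rintro rfl; exact hi ht.symm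
  · rw [h5 y, hy]
    · rw [hy]; rintro rfl; exact hi (hs.symm.trans hfxz.symm)
    · rw [hy]; rintro rfl; exact hi (ht.symm.trans hfxz.symm)

/-- A proper overgroup in `A` of the even partition stabilizer is primitive. -/
theorem isPreprimitive_of_evenStab_lt (ha : 2 ≤ a) (hb : 2 ≤ b) (h3 : 3 ≤ a ∨ 3 ≤ b)
    (hf : ∀ i : Fin b, Nat.card {x : Ω // f x = i} = a) {K : Subgroup (Equiv.Perm Ω)}
    (hK : evenStab f < K) (hKA : K ≤ alternatingGroup Ω) : IsPreprimitive K Ω := by
  have htr : IsPretransitive K Ω := by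
    refine ⟨fun p q => ?_⟩
    obtain ⟨h, hh, hpq⟩ := evenStab_transitive ha hb hf p q
    exact ⟨⟨h, hK.le hh⟩, hpq⟩
  -- blocks containing two points in different fibres are everything
  have hclaim1 : ∀ B : Set Ω, IsBlock K B → ∀ p ∈ B, ∀ q ∈ B, f p ≠ f q → ∀ z, z ∈ B := by
    intro B hB p hp q hq hpq z
    have hmove : ∀ {u v w : Ω}, u ∈ B → v ∈ B → f u ≠ f v → f w ≠ f u → w ∈ B := by
      intro u v w hu hv huv hwu
      obtain ⟨h, hh, h1, h2⟩ := exists_fix_move_cross ha h3 hf huv hwu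
      let k : K := ⟨h, hK.le hh⟩
      have h5 : k • B = B := hB.smul_eq_of_mem hu (by
        show h u ∈ B
        rw [h1]; exact hu)
      have h6 : k • v ∈ k • B := Set.smul_mem_smul_set hv
      rw [h5] at h6
      have h7 : k • v = z ∨ True := Or.inr trivial
      have : k • v = w := h2
      rwa [this] at h6
    by_cases hz : f z = f p
    · exact hmove hq hp (Ne.symm hpq) (by rw [hz]; exact hpq)
    · exact hmove hp hq hpq hz
  refine { isTrivialBlock_of_isBlock := ?_ }
  intro B hB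
  rw [IsTrivialBlock]
  by_contra hcon
  push Not at hcon
  obtain ⟨hns, hnu⟩ := hcon
  obtain ⟨p, hp, q, hq, hpq⟩ := hns
  have hnot : ¬ ∀ z, z ∈ B := by
    intro hall
    exact hnu (Set.eq_univ_of_forall hall)
  have hfpq : f p = f q := by
    by_contra hne
    exact hnot (hclaim1 B hB p hp q hq hne)
  -- the whole fibre of `p` lies in `B`
  have hfib : ∀ z, f z = f p → z ∈ B := by
    intro z hz
    by_cases hzp : z = p
    · rwa [hzp]
    by_cases hzq : z = q
    · rwa [hzq]
    obtain ⟨h, hh, h1, h2⟩ := exists_fix_move_same ha hb hf hpq (Ne.symm hzp) hfpq hz.symm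
    let k : K := ⟨h, hK.le hh⟩
    have h5 : k • B = B := hB.smul_eq_of_mem hp (by
      show h p ∈ B
      rw [h1]; exact hp)
    have h6 : k • q ∈ k • B := Set.smul_mem_smul_set hq
    rw [h5] at h6
    have : k • q = z := h2
    rwa [this] at h6
  -- an element separating a fibre
  obtain ⟨g, hgK, hgW⟩ := SetLike.exists_of_lt hK
  have hgW' : g ∉ partStab f := fun h => hgW ⟨h, hKA hgK⟩
  obtain ⟨g', hg', x, y, hxy, hfxy, hsep⟩ := exists_separated hgW'
  have hg'K : g' ∈ K := by
    rcases hg' with rfl | rfl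
    · exact hgK
    · exact K.inv_mem hgK
  obtain ⟨h, hh, hpx⟩ := evenStab_transitive ha hb hf p x
  let k : K := ⟨g' * h, K.mul_mem hg'K (hK.le hh)⟩
  have hkB : IsBlock K (k • B) := hB.translate k
  have hx : g' x ∈ k • B := by
    refine ⟨p, hp, ?_⟩
    show g' (h p) = g' x
    rw [hpx]
  have hy : g' y ∈ k • B := by
    refine ⟨h⁻¹ y, hfib _ ?_, ?_⟩
    · have h1 := (hh.1 p (h⁻¹ y))
      have h2 : h (h⁻¹ y) = y := by simp
      rw [h2, hpx] at h1
      exact (h1.2 hfxy).symm
    · show g' (h (h⁻¹ y)) = g' y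
      simp
  have hall := hclaim1 _ hkB _ hx _ hy hsep
  apply hnot
  intro z
  have h1 := hall (k • z)
  exact (Set.smul_mem_smul_set_iff).1 h1

/-- Disjoint swaps commute. -/
theorem swap_commute {p q r s : Ω} (h1 : p ≠ r) (h2 : p ≠ s) (h3 : q ≠ r) (h4 : q ≠ s) :
    Commute (Equiv.swap p q) (Equiv.swap r s) := by
  by_cases hpq : p = q
  · subst hpq; rw [Equiv.swap_self]; exact Commute.one_left _
  by_cases hrs : r = s
  · subst hrs; rw [Equiv.swap_self]; exact Commute.one_right _
  apply Equiv.Perm.Disjoint.commute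
  apply Equiv.Perm.disjoint_swap_swap
  simp [*]

/-- Partner in a fibre of size two. -/
theorem exists_partner (hf : ∀ i : Fin b, Nat.card {x : Ω // f x = i} = 2) (u : Ω) :
    ∃ u', u' ≠ u ∧ f u' = f u ∧ ∀ w, f w = f u → w = u ∨ w = u' := by
  have h := (Nat.card_eq_two_iff' (⟨u, rfl⟩ : {x : Ω // f x = f u})).1 (hf (f u))
  obtain ⟨⟨y, hy⟩, hy1, hy2⟩ := h
  refine ⟨y, fun h => hy1 (Subtype.ext h), hy, fun w hw => ?_⟩
  by_cases hwu : w = u
  · exact Or.inl hwu
  · right
    have := hy2 ⟨w, hw⟩ (fun h => hwu (congrArg Subtype.val h))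
    exact congrArg Subtype.val this

/-- The block swap `(u v)(u' v')` preserves a partition into pairs. -/
theorem block_swap_mem (hf : ∀ i : Fin b, Nat.card {x : Ω // f x = i} = 2) {u v u' v' : Ω}
    (huv : f u ≠ f v) (hu : u' ≠ u) (hfu : f u' = f u) (hu' : ∀ w, f w = f u → w = u ∨ w = u')
    (hv : v' ≠ v) (hfv : f v' = f v) (hv' : ∀ w, f w = f v → w = v ∨ w = v') :
    Equiv.swap u v * Equiv.swap u' v' ∈ evenStab f := by
  have hne1 : u ≠ v := by rintro rfl; grind
  have hne2 : u' ≠ v' := by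
    rintro rfl; grind
  have huv' : u ≠ v' := by rintro rfl; grind
  have hvu' : v ≠ u' := by rintro rfl; grind
  refine ⟨?_, swap_mul_swap_mem_alt hne1 hne2⟩
  have key : ∀ w, f ((Equiv.swap u v * Equiv.swap u' v') w) = Equiv.swap (f u) (f v) (f w) := by
    intro w
    simp only [Equiv.Perm.mul_apply]
    by_cases h1 : w = u
    · subst h1
      rw [Equiv.swap_apply_of_ne_of_ne hu.symm huv', Equiv.swap_apply_left, Equiv.swap_apply_left]
    by_cases h2 : w = v
    · subst h2
      rw [Equiv.swap_apply_of_ne_of_ne hvu' hv.symm, Equiv.swap_apply_right, Equiv.swap_apply_right]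
    by_cases h3 : w = u'
    · subst h3
      rw [Equiv.swap_apply_left, Equiv.swap_apply_of_ne_of_ne huv'.symm hv, hfv, hfu,
        Equiv.swap_apply_left]
    by_cases h4 : w = v'
    · subst h4
      rw [Equiv.swap_apply_right, Equiv.swap_apply_of_ne_of_ne hu hvu'.symm, hfu, hfv,
        Equiv.swap_apply_right]
    rw [Equiv.swap_apply_of_ne_of_ne h3 h4, Equiv.swap_apply_of_ne_of_ne h1 h2,
      Equiv.swap_apply_of_ne_of_ne]
    · intro h; rcases hu' w h with h' | h'
      · exact h1 h'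
      · exact h3 h'
    · intro h; rcases hv' w h with h' | h'
      · exact h2 h'
      · exact h4 h'
  intro x y
  rw [key, key]
  exact (Equiv.apply_eq_iff_eq _).symm

/-- From a double transposition outside the partition stabilizer (first pair crossing, second pair
not the partners of the first), extract a 3-cycle. First case: `r` is the partner of `u`. -/
theorem three_cycle_case_one (hf : ∀ i : Fin b, Nat.card {x : Ω // f x = i} = 2)
    {K : Subgroup (Equiv.Perm Ω)} (hK : evenStab f ≤ K) {u v u' v' s : Ω}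
    (huv : f u ≠ f v) (hu : u' ≠ u) (hfu : f u' = f u) (hu' : ∀ w, f w = f u → w = u ∨ w = u')
    (hv : v' ≠ v) (hfv : f v' = f v) (hv' : ∀ w, f w = f v → w = v ∨ w = v')
    (hsu : s ≠ u) (hsv : s ≠ v) (hsu' : s ≠ u') (hsv' : s ≠ v')
    (ht : Equiv.swap u v * Equiv.swap u' s ∈ K) : ∃ c ∈ K, Equiv.Perm.IsThreeCycle c := by
  have hvu' : v ≠ u' := by rintro rfl; grind
  have hne2 : u' ≠ v' := by
    rintro rfl; grind
  have hc : Commute (Equiv.swap u v) (Equiv.swap u' s) :=
    swap_commute hu.symm hsu.symm hvu' hsv.symm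
  have hmem := K.mul_mem ht (hK (block_swap_mem hf huv hu hfu hu' hv hfv hv'))
  refine ⟨Equiv.swap u' s * Equiv.swap u' v', ?_, isThreeCycle_swap_mul_swap_same hsu'.symm hne2 hsv'⟩
  have : Equiv.swap u v * Equiv.swap u' s * (Equiv.swap u v * Equiv.swap u' v')
      = Equiv.swap u' s * Equiv.swap u' v' := by
    rw [hc.eq, mul_assoc, ← mul_assoc (Equiv.swap u v), Equiv.swap_mul_self, one_mul]
  rwa [this] at hmem

/-- Second case: the second pair is a full fibre disjoint from the first pair. -/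
theorem three_cycle_case_two
    {K : Subgroup (Equiv.Perm Ω)} (hK : evenStab f ≤ K) {u v u' r s : Ω}
    (hu : u' ≠ u) (hfu : f u' = f u) (huv : f u ≠ f v)
    (hrs : r ≠ s) (hfrs : f r = f s) (hru : f r ≠ f u) (hrv : f r ≠ f v)
    (ht : Equiv.swap u v * Equiv.swap r s ∈ K) : ∃ c ∈ K, Equiv.Perm.IsThreeCycle c := by
  have hne : u ≠ v := by rintro rfl; grind
  have hvu' : v ≠ u' := by rintro rfl; grind
  have hmem := K.mul_mem ht (hK (swap_mul_swap_mem_evenStab hu.symm hrs hfu.symm hfrs))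
  refine ⟨Equiv.swap u v * Equiv.swap u u', ?_, isThreeCycle_swap_mul_swap_same hne hu.symm hvu'⟩
  have h1 : Commute (Equiv.swap r s) (Equiv.swap u u') := by
    apply swap_commute
    · rintro rfl; grind
    · rintro rfl; grind
    · rintro rfl; grind
    · rintro rfl; grind
  have : Equiv.swap u v * Equiv.swap r s * (Equiv.swap u u' * Equiv.swap r s)
      = Equiv.swap u v * Equiv.swap u u' := by
    rw [mul_assoc, ← mul_assoc (Equiv.swap r s), h1.eq, mul_assoc, Equiv.swap_mul_self, mul_one]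
  rwa [this] at hmem

/-- Third case: the four points of the double transposition lie in four different fibres, and there
is a fifth fibre. -/
theorem three_cycle_case_three
    {K : Subgroup (Equiv.Perm Ω)} (hK : evenStab f ≤ K) {u v u' r s d d' : Ω}
    (hu : u' ≠ u) (hfu : f u' = f u) (huv : f u ≠ f v)
    (hrs : r ≠ s) (hru : f r ≠ f u) (hrv : f r ≠ f v) (hsu : f s ≠ f u) (hsv : f s ≠ f v)
    (hd : d ≠ d') (hfd : f d = f d') (hdu : f d ≠ f u) (hdv : f d ≠ f v) (hdr : f d ≠ f r)
    (hds : f d ≠ f s)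
    (ht : Equiv.swap u v * Equiv.swap r s ∈ K) : ∃ c ∈ K, Equiv.Perm.IsThreeCycle c := by
  have hne : u ≠ v := by rintro rfl; grind
  have hvu' : v ≠ u' := by rintro rfl; grind
  have hmem := K.mul_mem ht (hK (swap_mul_swap_mem_evenStab hu.symm hd hfu.symm hfd))
  refine ⟨(Equiv.swap u v * Equiv.swap u u') * (Equiv.swap u v * Equiv.swap u u'), ?_,
    (isThreeCycle_swap_mul_swap_same hne hu.symm hvu').isThreeCycle_sq⟩
  have hfd' : f d' ≠ f u := by rw [← hfd]; exact hdu
  have h1 : Commute (Equiv.swap r s) (Equiv.swap u u') := by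
    apply swap_commute
    · rintro rfl; grind
    · rintro rfl; grind
    · rintro rfl; grind
    · rintro rfl; grind
  have h2 : Commute (Equiv.swap r s) (Equiv.swap d d') := by
    apply swap_commute
    · rintro rfl; grind
    · rintro rfl; grind
    · rintro rfl; grind
    · rintro rfl; grind
  have h3 : Commute (Equiv.swap r s) (Equiv.swap u v) := by
    apply swap_commute
    · rintro rfl; grind
    · rintro rfl; grind
    · rintro rfl; grind
    · rintro rfl; grind
  have h4 : Commute (Equiv.swap d d') (Equiv.swap u v) := by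
    apply swap_commute
    · rintro rfl; grind
    · rintro rfl; grind
    · rintro rfl; grind
    · rintro rfl; grind
  have h5 : Commute (Equiv.swap d d') (Equiv.swap u u') := by
    apply swap_commute
    · rintro rfl; grind
    · rintro rfl; grind
    · rintro rfl; grind
    · rintro rfl; grind
  have hprod : Equiv.swap u v * Equiv.swap r s * (Equiv.swap u u' * Equiv.swap d d')
      = (Equiv.swap u v * Equiv.swap u u') * (Equiv.swap r s * Equiv.swap d d') := by
    rw [mul_assoc, mul_assoc, ← mul_assoc (Equiv.swap r s), h1.eq, mul_assoc]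
  have hcomm : Commute (Equiv.swap u v * Equiv.swap u u') (Equiv.swap r s * Equiv.swap d d') := by
    apply Commute.mul_left
    · exact (h3.symm.mul_right h4.symm)
    · exact (h1.symm.mul_right h5.symm)
  have hsq : (Equiv.swap r s * Equiv.swap d d') * (Equiv.swap r s * Equiv.swap d d') = 1 := by
    rw [mul_assoc, ← mul_assoc (Equiv.swap d d'), h2.symm.eq]
    simp [mul_assoc]
  have hmem2 := K.mul_mem hmem hmem
  rw [hprod] at hmem2
  have hfin : (Equiv.swap u v * Equiv.swap u u') * (Equiv.swap r s * Equiv.swap d d') *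
      ((Equiv.swap u v * Equiv.swap u u') * (Equiv.swap r s * Equiv.swap d d'))
      = (Equiv.swap u v * Equiv.swap u u') * (Equiv.swap u v * Equiv.swap u u') := by
    rw [mul_assoc (Equiv.swap u v * Equiv.swap u u') (Equiv.swap r s * Equiv.swap d d'),
      ← mul_assoc (Equiv.swap r s * Equiv.swap d d') (Equiv.swap u v * Equiv.swap u u'),
      hcomm.symm.eq, mul_assoc (Equiv.swap u v * Equiv.swap u u') (Equiv.swap r s * Equiv.swap d d'),
      hsq, mul_one]
  rwa [hfin] at hmem2

/-- A 3-cycle in any proper overgroup, for `a = 2`, `b ≥ 3`, `b ≠ 4`. -/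
theorem exists_three_cycle_pairs (hb : 3 ≤ b) (hb4 : b ≠ 4)
    (hf : ∀ i : Fin b, Nat.card {x : Ω // f x = i} = 2) {K : Subgroup (Equiv.Perm Ω)}
    (hK : evenStab f < K) (hKA : K ≤ alternatingGroup Ω) : ∃ c ∈ K, Equiv.Perm.IsThreeCycle c := by
  classical
  choose par hpar1 hpar2 hpar3 using exists_partner hf
  -- an element separating a pair
  obtain ⟨g, hgK, hgW⟩ := SetLike.exists_of_lt hK
  have hgW' : g ∉ partStab f := fun h => hgW ⟨h, hKA hgK⟩
  obtain ⟨g', hg', x, x', hxx', hfxx', hsep⟩ := exists_separated hgW'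
  have hg'K : g' ∈ K := by
    rcases hg' with rfl | rfl
    · exact hgK
    · exact K.inv_mem hgK
  set u := g' x with hu
  set v := g' x' with hv
  have hpart : ∀ y y', f y ≠ f x → y ≠ y' → f y = f y' → Equiv.swap u v * Equiv.swap (g' y) (g' y') ∈ K := by
    intro y y' hy hyy' hfyy'
    have hm : Equiv.swap x x' * Equiv.swap y y' ∈ evenStab f :=
      swap_mul_swap_mem_evenStab hxx' hyy' hfxx' hfyy'
    have h1 := K.mul_mem (K.mul_mem hg'K (hK.le hm)) (K.inv_mem hg'K)
    have h2 : g' * (Equiv.swap x x' * Equiv.swap y y') * g'⁻¹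
        = Equiv.swap u v * Equiv.swap (g' y) (g' y') := by
      rw [hu, hv, Equiv.swap_apply_apply, Equiv.swap_apply_apply]
      group
    rwa [h2] at h1
  -- choose two other fibres
  have hex : ∃ j₁ j₂ : Fin b, j₁ ≠ f x ∧ j₂ ≠ f x ∧ j₁ ≠ j₂ := by
    have h3 : ∀ A : Finset (Fin b), A.card < b → ∃ k, k ∉ A := by
      intro A hA
      by_contra hcon
      push Not at hcon
      have : A = Finset.univ := Finset.eq_univ_of_forall hcon
      rw [this] at hA
      simp at hA
    obtain ⟨j₁, hj₁⟩ := h3 {f x} (by simp; omega)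
    obtain ⟨j₂, hj₂⟩ := h3 {f x, j₁} (lt_of_le_of_lt Finset.card_le_two (by omega))
    simp only [Finset.mem_singleton, Finset.mem_insert, not_or] at hj₁ hj₂
    exact ⟨j₁, j₂, hj₁, hj₂.1, Ne.symm hj₂.2⟩
  obtain ⟨j₁, j₂, hj₁, hj₂, hj⟩ := hex
  obtain ⟨y₁, y₁', hy₁, hfy₁, hfy₁'⟩ := exists_pair_fibre (a := 2) le_rfl hf j₁
  obtain ⟨y₂, y₂', hy₂, hfy₂, hfy₂'⟩ := exists_pair_fibre (a := 2) le_rfl hf j₂
  -- pick a fibre whose image is not the partner pair of `u, v`
  have hpick : ∃ y y', f y ≠ f x ∧ y ≠ y' ∧ f y = f y' ∧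
      ¬ ((g' y = par u ∧ g' y' = par v) ∨ (g' y = par v ∧ g' y' = par u)) := by
    by_cases hcase : (g' y₁ = par u ∧ g' y₁' = par v) ∨ (g' y₁ = par v ∧ g' y₁' = par u)
    · refine ⟨y₂, y₂', by rw [hfy₂]; exact hj₂, hy₂, hfy₂.trans hfy₂'.symm, ?_⟩
      have hd : ∀ w w', f w = j₁ → f w' = j₂ → g' w ≠ g' w' := by
        intro w w' hw hw' h
        have := g'.injective h
        subst this
        exact hj (hw.symm.trans hw')
      rintro (⟨h1, h2⟩ | ⟨h1, h2⟩) <;> rcases hcase with ⟨h3, h4⟩ | ⟨h3, h4⟩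
      · exact hd y₁ y₂ hfy₁ hfy₂ (h3.trans h1.symm)
      · exact hd y₁' y₂ hfy₁' hfy₂ (h4.trans h1.symm)
      · exact hd y₁' y₂ hfy₁' hfy₂ (h4.trans h1.symm)
      · exact hd y₁ y₂ hfy₁ hfy₂ (h3.trans h1.symm)
    · exact ⟨y₁, y₁', by rw [hfy₁]; exact hj₁, hy₁, hfy₁.trans hfy₁'.symm, hcase⟩
  obtain ⟨y, y', hy, hyy', hfyy', hnot⟩ := hpick
  have ht := hpart y y' hy hyy' hfyy'
  set r := g' y with hr
  set s := g' y' with hs
  have hrs : r ≠ s := fun h => hyy' (g'.injective h)
  have hyx : y ≠ x := by rintro rfl; exact hy rfl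
  have hyx' : y ≠ x' := by rintro rfl; exact hy hfxx'.symm
  have hy'x : y' ≠ x := by rintro rfl; exact hy hfyy'
  have hy'x' : y' ≠ x' := by rintro rfl; exact hy (hfyy'.trans hfxx'.symm)
  have hru : r ≠ u := fun h => hyx (g'.injective h)
  have hrv : r ≠ v := fun h => hyx' (g'.injective h)
  have hsu : s ≠ u := fun h => hy'x (g'.injective h)
  have hsv : s ≠ v := fun h => hy'x' (g'.injective h)
  have hsep' : f v ≠ f u := Ne.symm hsep
  -- case analysis
  by_cases h1 : r = par u
  · by_cases h2 : s = par v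
    · exact absurd (Or.inl ⟨h1, h2⟩) hnot
    · rw [h1] at ht hrs
      exact three_cycle_case_one hf hK.le hsep (hpar1 u) (hpar2 u) (hpar3 u) (hpar1 v) (hpar2 v)
        (hpar3 v) hsu hsv hrs.symm h2 ht
  by_cases h2 : r = par v
  · by_cases h3 : s = par u
    · exact absurd (Or.inr ⟨h2, h3⟩) hnot
    · rw [h2] at ht hrs
      rw [Equiv.swap_comm u v] at ht
      exact three_cycle_case_one hf hK.le hsep' (hpar1 v) (hpar2 v) (hpar3 v) (hpar1 u) (hpar2 u)
        (hpar3 u) hsv hsu hrs.symm h3 ht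
  by_cases h3 : s = par u
  · rw [h3] at ht hrs
    rw [Equiv.swap_comm r] at ht
    exact three_cycle_case_one hf hK.le hsep (hpar1 u) (hpar2 u) (hpar3 u) (hpar1 v) (hpar2 v)
      (hpar3 v) hru hrv hrs h2 ht
  by_cases h4 : s = par v
  · rw [h4] at ht hrs
    rw [Equiv.swap_comm r, Equiv.swap_comm u v] at ht
    exact three_cycle_case_one hf hK.le hsep' (hpar1 v) (hpar2 v) (hpar3 v) (hpar1 u) (hpar2 u)
      (hpar3 u) hrv hru hrs h1 ht
  -- now `r, s` lie outside the fibres of `u, v`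
  have hfru : f r ≠ f u := fun h => (hpar3 u r h).elim hru h1
  have hfrv : f r ≠ f v := fun h => (hpar3 v r h).elim hrv h2
  have hfsu : f s ≠ f u := fun h => (hpar3 u s h).elim hsu h3
  have hfsv : f s ≠ f v := fun h => (hpar3 v s h).elim hsv h4
  by_cases hfrs : f r = f s
  · exact three_cycle_case_two hK.le (hpar1 u) (hpar2 u) hsep hrs hfrs hfru hfrv ht
  -- four different fibres, so `b ≥ 5`
  have hb5 : 5 ≤ b := by
    have hsub : ({f u, f v, f r, f s} : Finset (Fin b)).card = 4 := by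
      rw [Finset.card_insert_of_notMem (by simp [hsep, Ne.symm hfru, Ne.symm hfsu]),
        Finset.card_insert_of_notMem (by simp [Ne.symm hfrv, Ne.symm hfsv]),
        Finset.card_insert_of_notMem (by simpa using hfrs), Finset.card_singleton]
    have := Finset.card_le_univ ({f u, f v, f r, f s} : Finset (Fin b))
    simp only [Fintype.card_fin] at this
    omega
  have hex2 : ∃ k : Fin b, k ≠ f u ∧ k ≠ f v ∧ k ≠ f r ∧ k ≠ f s := by
    by_contra hcon
    push Not at hcon
    have hsub : (Finset.univ : Finset (Fin b)) ⊆ {f u, f v, f r, f s} := by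
      intro k _
      by_cases h5 : k = f u
      · simp [h5]
      by_cases h6 : k = f v
      · simp [h6]
      by_cases h7 : k = f r
      · simp [h7]
      · simp [hcon k h5 h6 h7]
    have h8 := Finset.card_le_card hsub
    have h9 : ({f u, f v, f r, f s} : Finset (Fin b)).card ≤ 4 := Finset.card_le_four
    simp only [Finset.card_univ, Fintype.card_fin] at h8
    omega
  obtain ⟨k, hk1, hk2, hk3, hk4⟩ := hex2
  obtain ⟨d, d', hd, hfd, hfd'⟩ := exists_pair_fibre (a := 2) le_rfl hf k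
  exact three_cycle_case_three hK.le (hpar1 u) (hpar2 u) hsep hrs hfru hfrv hfsu hfsv hd
    (hfd.trans hfd'.symm) (by rw [hfd]; exact hk1) (by rw [hfd]; exact hk2) (by rw [hfd]; exact hk3)
    (by rw [hfd]; exact hk4) ht

/-- The cardinality of `Ω`. -/
theorem card_eq_mul (hf : ∀ i : Fin b, Nat.card {x : Ω // f x = i} = a) :
    Fintype.card Ω = b * a := by
  obtain ⟨E, -⟩ := exists_coord a f hf
  rw [Fintype.card_congr E, Fintype.card_prod, Fintype.card_fin, Fintype.card_fin]

/-- The case `|Ω| = 4`. -/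
theorem evenStab_two_two (hf : ∀ i : Fin 2, Nat.card {x : Ω // g x = i} = 2) {K : Subgroup (Equiv.Perm Ω)}
    (hK : evenStab g < K) (hKA : K ≤ alternatingGroup Ω) : K = alternatingGroup Ω := by
  have hcard : Fintype.card Ω = 4 := by rw [card_eq_mul hf]
  have htr : IsPretransitive (evenStab g) Ω := by
    refine ⟨fun p q => ?_⟩
    obtain ⟨h, hh, hpq⟩ := evenStab_transitive le_rfl le_rfl hf p q
    exact ⟨⟨h, hh⟩, hpq⟩
  obtain ⟨p⟩ : Nonempty Ω := by
    apply Fintype.card_pos_iff.1; omega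
  have h4 : 4 ∣ Nat.card (evenStab g) := by
    have h1 := index_stabilizer_of_transitive (evenStab g) p
    rw [Nat.card_eq_fintype_card, hcard] at h1
    rw [← h1]
    exact Subgroup.index_dvd_card _
  have hdvd : Nat.card (evenStab g) ∣ Nat.card K := Subgroup.card_dvd_of_le hK.le
  have hnt : Nontrivial Ω := by
    apply Fintype.one_lt_card_iff_nontrivial.1; omega
  have hA : Nat.card (alternatingGroup Ω) = 12 := by
    have := two_mul_nat_card_alternatingGroup (α := Ω)
    rw [Nat.card_perm, Nat.card_eq_fintype_card (α := Ω), hcard] at this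
    have h24 : Nat.factorial 4 = 24 := rfl
    omega
  have hKdvd : Nat.card K ∣ 12 := hA ▸ Subgroup.card_dvd_of_le hKA
  have h4K : 4 ∣ Nat.card K := h4.trans hdvd
  have hne : Nat.card K ≠ 4 := by
    intro h
    have hT : Nat.card (evenStab g) = 4 := by
      apply Nat.le_antisymm
      · exact h ▸ Nat.le_of_dvd (by rw [h]; norm_num) hdvd
      · exact Nat.le_of_dvd Nat.card_pos h4
    exact hK.ne (Subgroup.eq_of_le_of_card_ge hK.le (by omega))
  have h12 : Nat.card K = 12 := by
    have hle := Nat.le_of_dvd (by norm_num) hKdvd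
    interval_cases (Nat.card K) <;> omega
  exact Subgroup.eq_of_le_of_card_ge hKA (by omega)

/-- Overgroups of the even partition stabilizer. -/
theorem evenStab_maximal (h8 : Fintype.card Ω ≠ 8) (ha : 2 ≤ a) (hb : 2 ≤ b)
    (hf : ∀ i : Fin b, Nat.card {x : Ω // f x = i} = a) {K : Subgroup (Equiv.Perm Ω)}
    (hK : evenStab f < K) (hKA : K ≤ alternatingGroup Ω) : K = alternatingGroup Ω := by
  classical
  have hcard := card_eq_mul hf
  by_cases h22 : a = 2 ∧ b = 2
  · obtain ⟨rfl, rfl⟩ := h22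
    exact evenStab_two_two hf hK hKA
  have h3 : 3 ≤ a ∨ 3 ≤ b := by omega
  have hprim := isPreprimitive_of_evenStab_lt ha hb h3 hf hK hKA
  have hc : ∃ c ∈ K, Equiv.Perm.IsThreeCycle c := by
    by_cases ha3 : 3 ≤ a
    · have hnt : Nonempty (Fin b) := ⟨⟨0, by omega⟩⟩
      obtain ⟨i⟩ := hnt
      obtain ⟨s, t, u, h1, h2, h4, hs, ht, hu⟩ := exists_triple_fibre ha3 hf i
      refine ⟨Equiv.swap s t * Equiv.swap s u, hK.le ?_, isThreeCycle_swap_mul_swap_same h1 h2 h4⟩
      exact swap_mul_swap_mem_evenStab h1 h2 (hs.trans ht.symm) (hs.trans hu.symm)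
    · have ha2 : a = 2 := by omega
      subst ha2
      have hb3 : 3 ≤ b := by omega
      have hb4 : b ≠ 4 := by
        rintro rfl
        exact h8 hcard
      exact exists_three_cycle_pairs hb3 hb4 hf hK hKA
  obtain ⟨c, hcK, hc3⟩ := hc
  exact le_antisymm hKA (alternatingGroup_le_of_isPreprimitive_of_isThreeCycle_mem hprim hc3 hcK)

/-- A relative maximality criterion. -/
theorem isCoatom_subgroupOf_of_forall {G : Type*} [Group G] {T A : Subgroup G} (hTA : T ≤ A)
    (hne : T ≠ A) (hmax : ∀ K, T < K → K ≤ A → K = A) : IsCoatom (T.subgroupOf A) := by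
  refine ⟨?_, fun Y hY => ?_⟩
  · intro h
    apply hne
    apply le_antisymm hTA
    intro x hx
    have : (⟨x, hx⟩ : A) ∈ T.subgroupOf A := by rw [h]; trivial
    exact this
  · let K := Y.map A.subtype
    have hKA : K ≤ A := by
      rintro _ ⟨y, -, rfl⟩
      exact y.2
    have hTK : T < K := by
      refine lt_of_le_of_ne ?_ ?_
      · intro x hx
        exact ⟨⟨x, hTA hx⟩, hY.le hx, rfl⟩
      · intro h
        obtain ⟨y, hy, hyT⟩ := SetLike.exists_of_lt hY
        apply hyT
        have : (y : G) ∈ K := ⟨y, hy, rfl⟩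
        rw [← h] at this
        exact this
    have hKeq := hmax K hTK hKA
    rw [eq_top_iff]
    intro y _
    have : (y : G) ∈ K := by rw [hKeq]; exact y.2
    obtain ⟨z, hz, hzy⟩ := this
    have : z = y := Subtype.ext hzy
    rwa [← this]

/-- Maximality of the even partition stabilizer in the alternating group. -/
theorem isCoatom_evenStab (h8 : Fintype.card Ω ≠ 8) (ha : 2 ≤ a) (hb : 2 ≤ b)
    (hf : ∀ i : Fin b, Nat.card {x : Ω // f x = i} = a) :
    IsCoatom ((evenStab f).subgroupOf (alternatingGroup Ω)) := by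
  apply isCoatom_subgroupOf_of_forall inf_le_right
  · intro h
    obtain ⟨x, y, z, hxy, hfxy, hfxz⟩ := exists_points a ha hb f hf
    have hxz : x ≠ z := by rintro rfl; exact hfxz rfl
    have hyz : y ≠ z := by rintro rfl; exact hfxz hfxy
    have hmem : Equiv.swap x y * Equiv.swap x z ∈ alternatingGroup Ω := swap_mul_swap_mem_alt hxy hxz
    rw [← h] at hmem
    have h1 := (hmem.1 x y).1 hfxy
    have h2 : (Equiv.swap x y * Equiv.swap x z) x = z := by
      simp only [Equiv.Perm.mul_apply, Equiv.swap_apply_left]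
      exact Equiv.swap_apply_of_ne_of_ne hxz.symm hyz.symm
    have h3 : (Equiv.swap x y * Equiv.swap x z) y = x := by
      simp only [Equiv.Perm.mul_apply]
      rw [Equiv.swap_apply_of_ne_of_ne hxy.symm hyz, Equiv.swap_apply_right]
    rw [h2, h3] at h1
    exact hfxz h1.symm
  · exact fun K hK hKA => evenStab_maximal h8 ha hb hf hK hKA

end

end Cfsg.Agent.Lib.Geo
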