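/-
Subgroups of index six of the symmetric group of degree six.
-/
import Mathlib
import Cfsg.Agent.S5911

set_option autoImplicit false

namespace Cfsg.Agent.Lib.Geo.S6Index

open Equiv Equiv.Perm MulAction

abbrev G6 := Perm (Fin 6)

/-! ### Involutions with a fixed point -/

theorem swap_of_fixed {X : Type*} [Fintype X] [DecidableEq X] (x : Perm X)
    (hx : x * x = 1) (hx1 : x ≠ 1) (hfix : ∃ e, x e = e)
    (H : ∀ σ : Perm X, (x * (σ * x * σ⁻¹)) ^ 6 = 1) : x.IsSwap := by
  have hxx : ∀ y, x (x y) = y := fun y => by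
    have := congrArg (fun f : Perm X => f y) hx
    simpa using this
  obtain ⟨a, ha⟩ : ∃ a, x a ≠ a := by
    by_contra hcon
    push Not at hcon
    exact hx1 (Equiv.ext hcon)
  obtain ⟨b, hb⟩ : ∃ b, x a = b := ⟨_, rfl⟩
  rw [hb] at ha
  have hba : x b = a := by rw [← hb, hxx]
  by_cases hsw : ∀ y, y ≠ a → y ≠ b → x y = y
  · refine ⟨a, b, Ne.symm ha, Equiv.ext fun y => ?_⟩
    by_cases h1 : y = a
    · subst h1; simp [hb]
    by_cases h2 : y = b
    · subst h2; simp [hba]
    rw [hsw y h1 h2, swap_apply_of_ne_of_ne h1 h2]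
  exfalso
  push Not at hsw
  obtain ⟨c, hca, hcb, hc⟩ := hsw
  obtain ⟨d, hd⟩ : ∃ d, x c = d := ⟨_, rfl⟩
  rw [hd] at hc
  have hdc : x d = c := by rw [← hd, hxx]
  obtain ⟨e, he⟩ := hfix
  have hnd : [a, b, c, d, e].Nodup := by
    simp only [List.nodup_cons, List.mem_cons, List.not_mem_nil, or_false, not_or,
      List.nodup_nil, and_true, not_false_eq_true]
    grind
  set σ : Perm X := List.formPerm [a, b, c, d, e] with hσ
  have s1 : σ a = b :=
    List.formPerm_apply_getElem [a, b, c, d, e] hnd 0 (by simp)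
  have s2 : σ b = c :=
    List.formPerm_apply_getElem [a, b, c, d, e] hnd 1 (by simp)
  have s3 : σ c = d :=
    List.formPerm_apply_getElem [a, b, c, d, e] hnd 2 (by simp)
  have s4 : σ d = e :=
    List.formPerm_apply_getElem [a, b, c, d, e] hnd 3 (by simp)
  have s5 : σ e = a :=
    (List.formPerm_apply_getElem [a, b, c, d, e] hnd 4 (by simp)).trans (by simp)
  have i1 : σ⁻¹ b = a := by rw [inv_eq_iff_eq, s1]
  have i2 : σ⁻¹ c = b := by rw [inv_eq_iff_eq, s2]
  have i3 : σ⁻¹ d = c := by rw [inv_eq_iff_eq, s3]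
  have i4 : σ⁻¹ e = d := by rw [inv_eq_iff_eq, s4]
  have i5 : σ⁻¹ a = e := by rw [inv_eq_iff_eq, s5]
  set z := x * (σ * x * σ⁻¹) with hz
  have z1 : z a = b := by simp only [hz, mul_apply, i5, he, s5, hb]
  have z2 : z b = d := by simp only [hz, mul_apply, i1, hb, s2, hd]
  have z3 : z d = e := by simp only [hz, mul_apply, i3, hd, s4, he]
  have z4 : z e = c := by simp only [hz, mul_apply, i4, hdc, s3]
  have z5 : z c = a := by simp only [hz, mul_apply, i2, hba, s1]
  have h1 : (z ^ 6) a = a := by rw [H σ]; rfl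
  have h6 : (z ^ 6) a = b := by
    have : z ^ 6 = z * z * z * z * z * z := by simp [pow_succ]
    rw [this]
    simp only [mul_apply, z1, z2, z3, z4, z5]
  rw [h6] at h1
  exact ha h1

/-- two fixed-point-free involutions on six points whose product has order dividing three
and fixes a point are equal. -/
theorem eq_of_fpf {X : Type*} [Fintype X] [DecidableEq X] (hX : Fintype.card X = 6)
    (u v : Perm X) (hu : ∀ y, u (u y) = y) (hv : ∀ y, v (v y) = y)
    (hu' : ∀ y, u y ≠ y) (hv' : ∀ y, v y ≠ y)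
    (hw : ∀ y, u (v (u (v (u (v y))))) = y) (o : X) (ho : u (v o) = o) : u = v := by
  by_contra hne
  obtain ⟨p', hp'⟩ : ∃ p, u p ≠ v p := by
    by_contra hcon
    push Not at hcon
    exact hne (Equiv.ext hcon)
  set p := p' with hpdef
  have hwp : ∀ y, u y ≠ v y → u (v y) ≠ y := by
    intro y hy h
    apply hy
    have := congrArg u h
    rw [hu] at this
    exact this.symm
  have hwp' : ∀ y, u (v y) ≠ y → u y ≠ v y := by
    intro y hy h
    apply hy
    rw [← h, hu]
  set w : X → X := fun y => u (v y) with hw_def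
  have hinj : Function.Injective w := fun a b h => v.injective (u.injective h)
  have hw3 : ∀ y, w (w (w y)) = y := hw
  set p0 := v p with hp0
  -- the points `p, w p, w (w p)`
  have h01 : w p ≠ p := hwp p hp'
  have h12 : w (w p) ≠ w p := fun h => h01 (hinj h)
  have h20 : w (w p) ≠ p := by
    intro h
    have := hw3 p
    rw [h] at this
    exact h01 this
  -- `u` moves the orbit off itself
  have key : ∀ y, u y ≠ y ∧ u y ≠ w y ∧ u y ≠ w (w y) := by
    intro y
    refine ⟨hu' y, ?_, ?_⟩
    · intro h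
      exact hv' y (u.injective h).symm
    · intro h
      have h2 : y = v (u (v y)) := u.injective h
      have h3 : v y = u (v y) := by
        have := congrArg v h2
        rw [hv] at this
        exact this
      exact hu' _ h3.symm
  have hwpow : ∀ y, w (w (w y)) = y := hw3
  have k0 := key p
  have k1 := key (w p)
  have k2 := key (w (w p))
  rw [hw3 p] at k2
  rw [hw3 p] at k1
  -- the six points are distinct
  have hnd : [p, w p, w (w p), u p, u (w p), u (w (w p))].Nodup := by
    simp only [List.nodup_cons, List.mem_cons, List.not_mem_nil, or_false, not_or,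
      List.nodup_nil, and_true, not_false_eq_true]
    have i1 : u p ≠ u (w p) := fun h => h01 (u.injective h).symm
    have i2 : u p ≠ u (w (w p)) := fun h => h20 (u.injective h).symm
    have i3 : u (w p) ≠ u (w (w p)) := fun h => h12 (u.injective h).symm
    refine ⟨⟨Ne.symm h01, Ne.symm h20, Ne.symm k0.1, ?_, ?_⟩, ⟨Ne.symm h12, Ne.symm k0.2.1, Ne.symm k1.1, ?_⟩,
      ⟨Ne.symm k0.2.2, Ne.symm k1.2.1, Ne.symm k2.1⟩, ⟨i1, i2⟩, i3⟩
    · exact Ne.symm k1.2.2
    · exact Ne.symm k2.2.1
    · exact Ne.symm k2.2.2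
  have hall : ∀ y : X, y ∈ [p, w p, w (w p), u p, u (w p), u (w (w p))] := by
    have h7 : [p, w p, w (w p), u p, u (w p), u (w (w p))].toFinset = Finset.univ := by
      apply Finset.eq_univ_of_card
      rw [List.toFinset_card_of_nodup hnd, hX]
      rfl
    intro y
    rw [← List.mem_toFinset, h7]
    exact Finset.mem_univ y
  -- `w` moves everything
  have hmove : ∀ y, u (v y) ≠ y → u (v (u y)) ≠ u y := by
    intro y hy h
    have h2 := hwp' y hy
    apply h2
    have h3 : v (u y) = y := u.injective h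
    have := congrArg v h3
    rw [hv] at this
    exact this
  have m0 : w p ≠ p := h01
  have m1 : w (w p) ≠ w p := h12
  have m2 : w (w (w p)) ≠ w (w p) := by
    rw [hw3 p]
    exact Ne.symm h20
  have ho' : w o = o := ho
  have := hall o
  simp only [List.mem_cons, List.not_mem_nil, or_false] at this
  rcases this with h | h | h | h | h | h
  · rw [h] at ho'; exact m0 ho'
  · rw [h] at ho'; exact m1 ho'
  · rw [h] at ho'; exact m2 ho'
  · rw [h] at ho'; exact hmove _ m0 ho'
  · rw [h] at ho'; exact hmove _ m1 ho'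
  · rw [h] at ho'; exact hmove _ m2 ho'

/-! ### The coset action -/

theorem exists_action (H : Subgroup G6) (hH : H.index = 6) :
    ∃ (X : Type) (_ : Fintype X) (_ : DecidableEq X) (φ : G6 →* Perm X) (o : X),
      Fintype.card X = 6 ∧ Function.Bijective φ ∧ ∀ g, g ∈ H ↔ φ g o = o := by
  classical
  let X := G6 ⧸ H
  haveI : Finite X := inferInstance
  letI : Fintype X := Fintype.ofFinite X
  have hcardX : Fintype.card X = 6 := by
    rw [← Nat.card_eq_fintype_card, ← hH]
    rfl
  let φ : G6 →* Perm X := MulAction.toPermHom G6 X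
  let o : X := ((1 : G6) : X)
  have hφo : ∀ g : G6, φ g o = ((g : G6) : X) := by
    intro g
    show g • ((1 : G6) : X) = _
    rw [MulAction.Quotient.smul_coe]
    simp
  have hmem : ∀ g : G6, g ∈ H ↔ φ g o = o := by
    intro g
    rw [hφo]
    show g ∈ H ↔ ((g : G6) : X) = ((1 : G6) : X)
    rw [QuotientGroup.eq]
    simp [H.inv_mem_iff]
  have hkerH : φ.ker ≤ H := by
    intro g hg
    rw [hmem, MonoidHom.mem_ker.1 hg]
    rfl
  have hinj : Function.Injective φ := by
    rw [injective_iff_map_eq_one]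
    by_contra hcon
    push Not at hcon
    obtain ⟨g, hg, hg1⟩ := hcon
    have hnt : Nontrivial φ.ker := by
      refine ⟨⟨⟨g, hg⟩, 1, fun h => hg1 ?_⟩⟩
      exact congrArg Subtype.val h
    have hA := Equiv.Perm.alternatingGroup_le_of_normal
      (by rw [Nat.card_eq_fintype_card]; simp) hnt
    have hdvd := Subgroup.index_dvd_of_le (hA.trans hkerH)
    have h2 : (alternatingGroup (Fin 6)).index = 2 := alternatingGroup.index_eq_two
    rw [h2, hH] at hdvd
    have := Nat.le_of_dvd (by norm_num) hdvd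
    omega
  have hbij : Function.Bijective φ := by
    apply hinj.bijective_of_nat_card_le
    rw [Nat.card_perm, Nat.card_perm, Nat.card_eq_fintype_card, Nat.card_eq_fintype_card, hcardX]
    simp
  exact ⟨X, inferInstance, inferInstance, φ, o, hcardX, hbij, hmem⟩

/-- index six subgroups are symmetric groups of degree five. -/
theorem iso_S5 (H : Subgroup G6) (hH : H.index = 6) : Nonempty (H ≃* Perm (Fin 5)) := by
  obtain ⟨X, _, _, φ, o, hX, hbij, hmem⟩ := exists_action H hH
  let Φ : G6 ≃* Perm X := MulEquiv.ofBijective φ hbij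
  let f : Perm {x : X // x ≠ o} →* Perm X := Equiv.Perm.ofSubtype
  have hf : Function.Injective f := Equiv.Perm.ofSubtype_injective
  have hmap : H.map (Φ : G6 →* Perm X) = f.range := by
    ext g
    constructor
    · rintro ⟨g', hg', rfl⟩
      have hfix : Φ g' o = o := (hmem g').1 hg'
      have hm : ∀ y, (y ≠ o) ↔ (Φ g' y ≠ o) := by
        intro y
        constructor
        · intro h h'
          apply h
          apply (Φ g').injective
          rw [h', hfix]
        · intro h h'
          apply h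
          rw [h', hfix]
      refine ⟨(Φ g').subtypePerm (fun y => (hm y).symm), ?_⟩
      ext y
      by_cases hy : y = o
      · subst hy
        show ofSubtype _ y = _
        rw [ofSubtype_apply_of_not_mem (a := y) _ (by simp)]
        exact hfix.symm
      · have hy' : y ≠ o := hy
        show ofSubtype ((Φ g').subtypePerm (fun y => (hm y).symm)) y = _
        exact (ofSubtype_apply_of_mem (p := fun x => x ≠ o) _ hy').trans rfl
    · rintro ⟨s, rfl⟩
      refine ⟨Φ.symm (f s), (hmem _).2 ?_, by simp⟩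
      have : φ (Φ.symm (f s)) = f s := Φ.apply_symm_apply (f s)
      rw [this]
      exact ofSubtype_apply_of_not_mem s (a := o) (by simp)
  have hcard : Fintype.card {x : X // x ≠ o} = 5 := by
    rw [Fintype.card_subtype_compl, hX]
    simp
  let e : {x : X // x ≠ o} ≃ Fin 5 := Fintype.equivFinOfCardEq hcard
  exact ⟨(Φ.subgroupMap H).trans ((MulEquiv.subgroupCongr hmap).trans
    ((MonoidHom.ofInjective hf).symm.trans (Equiv.permCongrHom e)))⟩

/-! ### Transpositions act as transpositions -/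

theorem dichotomy {X : Type} [Fintype X] [DecidableEq X] (φ : G6 →* Perm X)
    (hbij : Function.Bijective φ) :
    (∀ a b : Fin 6, a ≠ b → (φ (swap a b)).IsSwap) ∨
      (∀ a b : Fin 6, a ≠ b → ∀ y, φ (swap a b) y ≠ y) := by
  by_cases h : ∃ a b : Fin 6, a ≠ b ∧ ∃ y, φ (swap a b) y = y
  · left
    obtain ⟨a, b, hab, hfix⟩ := h
    have h0 : (φ (swap a b)).IsSwap := by
      apply swap_of_fixed _ _ _ hfix
      · intro σ
        obtain ⟨s, rfl⟩ := hbij.2 σ
        have : φ (swap a b) * (φ s * φ (swap a b) * (φ s)⁻¹) =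
            φ (swap a b * swap (s a) (s b)) := by
          rw [swap_apply_apply, map_mul, map_mul, map_mul, map_inv]
        rw [this, ← map_pow, Cfsg.Agent.S5911.six_swaps _ _ _ _ hab (fun h => hab (s.injective h)),
          map_one]
      · rw [← map_mul]
        simp
      · intro h
        have := hbij.1 (h.trans (map_one φ).symm)
        have h2 := congrArg (fun f : G6 => f a) this
        simp at h2
        exact hab h2.symm
    intro c d hcd
    obtain ⟨t, ht⟩ := isConj_iff.1 (Equiv.Perm.isConj_swap hab hcd)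
    rw [← ht, map_mul, map_mul, map_inv]
    obtain ⟨u, v, huv, huv'⟩ := h0
    rw [huv']
    refine ⟨φ t u, φ t v, fun h => huv ((φ t).injective h), ?_⟩
    rw [swap_apply_apply]
  · right
    push Not at h
    exact h

section CaseOne

variable {X : Type} [Fintype X] [DecidableEq X] (φ : G6 →* Perm X) (o : X)

theorem case_swaps (H : Subgroup G6) (hH : H.index = 6)
    (hinj : Function.Injective φ)
    (hmem : ∀ g, g ∈ H ↔ φ g o = o)
    (hswap : ∀ a b : Fin 6, a ≠ b → (φ (swap a b)).IsSwap) :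
    ∃ x : Fin 6, H = stabilizer G6 x := by
  have hmove : ∀ g : G6, (φ g).IsSwap → φ g o ≠ o → φ g = swap o (φ g o) := by
    intro g hg ho
    obtain ⟨u, v, huv, huv'⟩ := hg
    rw [huv'] at ho ⊢
    by_cases hu : o = u
    · subst hu
      simp
    by_cases hv : o = v
    · subst hv
      simp [swap_comm]
    rw [swap_apply_of_ne_of_ne hu hv] at ho
    exact absurd rfl ho
  have hint : ∀ a b c d : Fin 6, a ≠ b → c ≠ d → swap a b ∉ H → swap c d ∉ H →
      a = c ∨ a = d ∨ b = c ∨ b = d := by
    intro a b c d hab hcd h1 h2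
    by_contra hcon
    push Not at hcon
    obtain ⟨hac, had, hbc, hbd⟩ := hcon
    rw [hmem] at h1 h2
    have hx := hmove _ (hswap a b hab) h1
    have hy := hmove _ (hswap c d hcd) h2
    set x := φ (swap a b) with hxdef
    set y := φ (swap c d) with hydef
    have hcomm : x * y = y * x := by
      rw [hxdef, hydef, ← map_mul, ← map_mul]
      congr 1
      apply Equiv.Perm.Disjoint.commute
      intro t
      by_cases ht : t = a
      · subst ht
        right
        exact swap_apply_of_ne_of_ne hac had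
      by_cases ht' : t = b
      · subst ht'
        right
        exact swap_apply_of_ne_of_ne hbc hbd
      left
      exact swap_apply_of_ne_of_ne ht ht'
    have hxy : x ≠ y := by
      intro h
      have h3 := congrArg (fun f : G6 => f a) (hinj h)
      simp only [swap_apply_left] at h3
      rw [swap_apply_of_ne_of_ne hac had] at h3
      exact hab h3.symm
    have hne : y o ≠ x o := by
      intro h
      apply hxy
      rw [hx, hy, h]
    have h4 : x (y o) = y o := by
      rw [hx]
      exact swap_apply_of_ne_of_ne h2 hne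
    have h5 : y (x o) = x o := by
      rw [hy]
      exact swap_apply_of_ne_of_ne h1 (Ne.symm hne)
    have h6 := congrArg (fun f : Perm X => f o) hcomm
    simp only [mul_apply] at h6
    rw [h4, h5] at h6
    exact hne h6
  have hH1 : H ≠ ⊤ := by
    intro h
    rw [h, Subgroup.index_top] at hH
    omega
  obtain ⟨x, hx⟩ := Cfsg.Agent.S5911.exists_point (by simp) H hH1 hint
  exact ⟨x, Cfsg.Agent.S5911.eq_stab_of_le H x (by rw [hH]; simp)
    (Cfsg.Agent.S5911.stab_le_of_swaps H x hx)⟩

end CaseOne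

/-! ### Synthematic totals -/

/-- the stabilizer of an edge colouring of the complete graph, up to renaming the colours. -/
def St (f : Fin 6 → Fin 6 → Fin 6) : Subgroup G6 where
  carrier := {g | ∀ a b c d, a ≠ b → c ≠ d → (f a b = f c d ↔ f (g a) (g b) = f (g c) (g d))}
  mul_mem' := by
    intro x y hx hy a b c d hab hcd
    rw [hy a b c d hab hcd]
    exact hx _ _ _ _ (y.injective.ne hab) (y.injective.ne hcd)
  one_mem' := by
    intro a b c d _ _
    rfl
  inv_mem' := by
    intro x hx a b c d hab hcd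
    have := hx (x⁻¹ a) (x⁻¹ b) (x⁻¹ c) (x⁻¹ d) (x⁻¹.injective.ne hab) (x⁻¹.injective.ne hcd)
    simpa using this.symm

theorem mem_St {f : Fin 6 → Fin 6 → Fin 6} {g : G6} : g ∈ St f ↔
    ∀ a b c d, a ≠ b → c ≠ d → (f a b = f c d ↔ f (g a) (g b) = f (g c) (g d)) := Iff.rfl

/-- colour table: the edge `{0, a}` has colour `a` -/
def tcol (l : List (Fin 6)) (a b : Fin 6) : Fin 6 :=
  if a = b then 0 else
  if a.1 = 0 then b else if b.1 = 0 then a else
  let x := min a.1 b.1
  let y := max a.1 b.1
  let k := if x = 1 then y - 2 else if x = 2 then y + 1 else if x = 3 then y + 3 else 9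
  l.getD k 0

def tb : Fin 6 → List (Fin 6)
  | 0 => [3, 4, 5, 2, 5, 1, 4, 2, 1, 3]
  | 1 => [3, 5, 2, 4, 4, 5, 1, 1, 2, 3]
  | 2 => [4, 2, 5, 3, 5, 3, 1, 1, 4, 2]
  | 3 => [4, 5, 3, 2, 1, 5, 3, 2, 4, 1]
  | 4 => [5, 2, 3, 4, 4, 1, 3, 5, 1, 2]
  | 5 => [5, 4, 2, 3, 1, 3, 4, 5, 2, 1]

/-- the six totals -/
def fc (i : Fin 6) : Fin 6 → Fin 6 → Fin 6 := tcol (tb i)

theorem fc_symm : ∀ (i a b : Fin 6), fc i a b = fc i b a := by decide +kernel

def chk (f : Fin 6 → Fin 6 → Fin 6) (g : G6) : Bool :=
  decide (∀ a b c d : Fin 6, a < b → c < d → (f a b = f c d ↔ f (g a) (g b) = f (g c) (g d)))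

theorem mem_St_iff_chk (f : Fin 6 → Fin 6 → Fin 6) (hsym : ∀ a b, f a b = f b a) (g : G6) :
    g ∈ St f ↔ chk f g = true := by
  unfold chk
  rw [decide_eq_true_iff, mem_St]
  constructor
  · intro h a b c d hab hcd
    exact h a b c d (ne_of_lt hab) (ne_of_lt hcd)
  · intro h a b c d hab hcd
    rcases lt_or_gt_of_ne hab with h1 | h1 <;> rcases lt_or_gt_of_ne hcd with h2 | h2
    · exact h a b c d h1 h2
    · have := h a b d c h1 h2
      rwa [hsym d c, hsym (g d) (g c)] at this
    · have := h b a c d h1 h2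
      rwa [hsym b a, hsym (g b) (g a)] at this
    · have := h b a d c h1 h2
      rwa [hsym b a, hsym d c, hsym (g b) (g a), hsym (g d) (g c)] at this

set_option maxRecDepth 100000 in
theorem count0 : (Finset.univ.filter (fun g : G6 => chk (fc 0) g = true)).card = 120 := by
  decide +kernel

theorem card_St0 : Nat.card (St (fc 0)) = 120 := by
  show Nat.card {g // g ∈ St (fc 0)} = 120
  rw [Nat.subtype_card (Finset.univ.filter (fun g : G6 => chk (fc 0) g = true)), count0]
  intro g
  simp [mem_St_iff_chk _ (fc_symm 0)]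

/-- conjugators between the totals -/
def gi : Fin 6 → G6
  | 0 => 1
  | 1 => swap 0 3
  | 2 => swap 0 5
  | 3 => swap 0 2
  | 4 => swap 0 1
  | 5 => swap 0 4

set_option maxRecDepth 100000 in
theorem gi_spec : ∀ i a b c d : Fin 6, a ≠ b → c ≠ d →
    (fc i a b = fc i c d ↔ fc 0 (gi i a) (gi i b) = fc 0 (gi i c) (gi i d)) := by
  decide +kernel

theorem St_conj (f f' : Fin 6 → Fin 6 → Fin 6) (g : G6)
    (hg : ∀ a b c d, a ≠ b → c ≠ d → (f a b = f c d ↔ f' (g a) (g b) = f' (g c) (g d))) :
    (St f').map (MulAut.conj g⁻¹).toMonoidHom = St f := by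
  ext x
  rw [Subgroup.mem_map_equiv, mem_St, mem_St]
  have e : (MulAut.conj g⁻¹).symm x = g * x * g⁻¹ := by
    simp [MulAut.conj_symm_apply]
  rw [e]
  constructor
  · intro h a b c d hab hcd
    have h1 := hg a b c d hab hcd
    have h2 := h (g a) (g b) (g c) (g d) (g.injective.ne hab) (g.injective.ne hcd)
    have h3 := hg (x a) (x b) (x c) (x d) (x.injective.ne hab) (x.injective.ne hcd)
    have inv1 : ∀ y, g⁻¹ (g y) = y := fun y => g.symm_apply_apply y
    simp only [mul_apply, inv1] at h2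
    rw [h1, h2, h3]
  · intro h a b c d hab hcd
    have hg' : g⁻¹.toFun = fun y => g⁻¹ y := rfl
    have h1 := hg (g⁻¹ a) (g⁻¹ b) (g⁻¹ c) (g⁻¹ d) (g⁻¹.injective.ne hab) (g⁻¹.injective.ne hcd)
    have h2 := h (g⁻¹ a) (g⁻¹ b) (g⁻¹ c) (g⁻¹ d) (g⁻¹.injective.ne hab) (g⁻¹.injective.ne hcd)
    have h3 := hg (x (g⁻¹ a)) (x (g⁻¹ b)) (x (g⁻¹ c)) (x (g⁻¹ d))
      (x.injective.ne (g⁻¹.injective.ne hab)) (x.injective.ne (g⁻¹.injective.ne hcd))
    have inv2 : ∀ y, g (g⁻¹ y) = y := fun y => g.apply_symm_apply y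
    simp only [inv2] at h1
    simp only [mul_apply]
    rw [← h1, h2, h3]

theorem St_fc_conj (i : Fin 6) : (St (fc 0)).map (MulAut.conj (gi i)⁻¹).toMonoidHom = St (fc i) :=
  St_conj _ _ _ (gi_spec i)

theorem card_St (i : Fin 6) : Nat.card (St (fc i)) = 120 := by
  rw [← St_fc_conj i, Subgroup.card_map_of_injective (MulAut.conj _).injective, card_St0]

theorem index_St (i : Fin 6) : (St (fc i)).index = 6 := by
  have h := Subgroup.card_mul_index (St (fc i))
  rw [card_St, Nat.card_perm] at h
  simp [Nat.factorial] at h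
  omega

theorem swap_not_mem : ∀ (i a b : Fin 6), a ≠ b → chk (fc i) (swap a b) = false := by
  decide +kernel

theorem swap_not_mem_St (i a b : Fin 6) (hab : a ≠ b) : swap a b ∉ St (fc i) := by
  rw [mem_St_iff_chk _ (fc_symm i), swap_not_mem i a b hab]
  simp

set_option synthInstance.maxSize 4000 in
set_option synthInstance.maxHeartbeats 0 in
theorem tables_classify :
    ∀ x12 : Fin 6, (x12 ≠ 0 ∧ x12 ≠ 1 ∧ x12 ≠ 2) →
    ∀ x13 : Fin 6, (x13 ≠ 0 ∧ x13 ≠ 1 ∧ x13 ≠ 3 ∧ x13 ≠ x12) →
    ∀ x14 : Fin 6, (x14 ≠ 0 ∧ x14 ≠ 1 ∧ x14 ≠ 4 ∧ x14 ≠ x12 ∧ x14 ≠ x13) →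
    ∀ x15 : Fin 6, (x15 ≠ 0 ∧ x15 ≠ 1 ∧ x15 ≠ 5 ∧ x15 ≠ x12 ∧ x15 ≠ x13 ∧ x15 ≠ x14) →
    ∀ x23 : Fin 6, (x23 ≠ 0 ∧ x23 ≠ 2 ∧ x23 ≠ 3 ∧ x23 ≠ x12 ∧ x23 ≠ x13) →
    ∀ x24 : Fin 6, (x24 ≠ 0 ∧ x24 ≠ 2 ∧ x24 ≠ 4 ∧ x24 ≠ x12 ∧ x24 ≠ x14 ∧ x24 ≠ x23) →
    ∀ x25 : Fin 6, (x25 ≠ 0 ∧ x25 ≠ 2 ∧ x25 ≠ 5 ∧ x25 ≠ x12 ∧ x25 ≠ x15 ∧ x25 ≠ x23 ∧ x25 ≠ x24) →
    ∀ x34 : Fin 6, (x34 ≠ 0 ∧ x34 ≠ 3 ∧ x34 ≠ 4 ∧ x34 ≠ x13 ∧ x34 ≠ x14 ∧ x34 ≠ x23 ∧ x34 ≠ x24) →
    ∀ x35 : Fin 6, (x35 ≠ 0 ∧ x35 ≠ 3 ∧ x35 ≠ 5 ∧ x35 ≠ x13 ∧ x35 ≠ x15 ∧ x35 ≠ x23 ∧ x35 ≠ x25 ∧ x35 ≠ x34) →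
    ∀ x45 : Fin 6, (x45 ≠ 0 ∧ x45 ≠ 4 ∧ x45 ≠ 5 ∧ x45 ≠ x14 ∧ x45 ≠ x15 ∧ x45 ≠ x24 ∧ x45 ≠ x25 ∧ x45 ≠ x34 ∧ x45 ≠ x35) →
    List.elem [x12, x13, x14, x15, x23, x24, x25, x34, x35, x45] [tb 0, tb 1, tb 2, tb 3, tb 4, tb 5] = true := by
  decide +kernel


theorem case_fpf {X : Type} [Fintype X] [DecidableEq X] (φ : G6 →* Perm X) (o : X)
    (hX : Fintype.card X = 6) (hbij : Function.Bijective φ)
    (H : Subgroup G6) (hH : H.index = 6)
    (hmem : ∀ g, g ∈ H ↔ φ g o = o)
    (hfpf : ∀ a b : Fin 6, a ≠ b → ∀ y, φ (swap a b) y ≠ y) :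
    ∃ i, H = St (fc i) := by
  have hinv : ∀ (a b : Fin 6) (y : X), φ (swap a b) (φ (swap a b) y) = y := by
    intro a b y
    have : φ (swap a b) * φ (swap a b) = 1 := by
      rw [← map_mul]
      simp
    have := congrArg (fun f : Perm X => f y) this
    simpa using this
  let c : Fin 6 → Fin 6 → X := fun a b => φ (swap a b) o
  have hc0 : ∀ a b, a ≠ b → c a b ≠ o := fun a b hab => hfpf a b hab o
  have hcs : ∀ a b, c a b = c b a := by
    intro a b
    show φ (swap a b) o = φ (swap b a) o
    rw [swap_comm]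
  have hcne : ∀ a b d, a ≠ b → a ≠ d → b ≠ d → c a b ≠ c a d := by
    intro a b d hab had hbd h
    have h' : φ (swap a b) o = φ (swap a d) o := h
    have h3 : (swap a b * swap a d) ^ 3 = 1 := by
      have h3 := (isThreeCycle_swap_mul_swap_same hab had hbd).orderOf
      have := pow_orderOf_eq_one (swap a b * swap a d)
      rwa [h3] at this
    have huv : φ (swap a b) = φ (swap a d) := by
      apply eq_of_fpf hX _ _ (hinv a b) (hinv a d) (hfpf a b hab) (hfpf a d had) _ o
      · rw [← h', hinv]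
      · intro y
        have h4 := congrArg (fun f : G6 => φ f y) h3
        simp only [map_one, one_apply, map_pow] at h4
        have h5 : (φ (swap a b * swap a d)) ^ 3 = φ (swap a b) * φ (swap a d) * (φ (swap a b) * φ (swap a d)) * (φ (swap a b) * φ (swap a d)) := by
          rw [map_mul, pow_succ, pow_two]
        rw [h5] at h4
        simpa [mul_apply] using h4
    have := hbij.1 huv
    have h2 := congrArg (fun f : G6 => f a) this
    simp at h2
    exact hbd h2
  -- colours are named by the edges through `0`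
  have hsurj : ∀ y : X, y ≠ o → ∃ d : Fin 6, d ≠ 0 ∧ c 0 d = y := by
    classical
    let f : {d : Fin 6 // d ≠ 0} → {y : X // y ≠ o} := fun d => ⟨c 0 d.1, hc0 0 d.1 (Ne.symm d.2)⟩
    have hf : Function.Injective f := by
      intro d e hde
      by_contra hne
      have h' : c 0 d.1 = c 0 e.1 := congrArg Subtype.val hde
      exact hcne 0 d.1 e.1 (Ne.symm d.2) (Ne.symm e.2) (fun h => hne (Subtype.ext h)) h'
    have hfb : Function.Bijective f := by
      apply hf.bijective_of_nat_card_le
      rw [Nat.card_eq_fintype_card, Nat.card_eq_fintype_card, Fintype.card_subtype_compl,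
        Fintype.card_subtype_compl, hX]
      simp
    intro y hy
    obtain ⟨d, hd⟩ := hfb.2 ⟨y, hy⟩
    exact ⟨d.1, d.2, congrArg Subtype.val hd⟩
  have hm : ∀ a b : Fin 6, ∃ d : Fin 6, a ≠ b → (d ≠ 0 ∧ c 0 d = c a b) := by
    intro a b
    by_cases hab : a = b
    · exact ⟨0, fun h => absurd hab h⟩
    · obtain ⟨d, h1, h2⟩ := hsurj (c a b) (hc0 a b hab)
      exact ⟨d, fun _ => ⟨h1, h2⟩⟩
  choose m hm using hm
  have hminj : ∀ a b a' b', a ≠ b → a' ≠ b' → (m a b = m a' b' ↔ c a b = c a' b') := by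
    intro a b a' b' h1 h2
    constructor
    · intro h
      rw [← (hm a b h1).2, ← (hm a' b' h2).2, h]
    · intro h
      by_contra hne
      have h3 := (hm a b h1).2
      have h4 := (hm a' b' h2).2
      exact hcne 0 (m a b) (m a' b') (Ne.symm (hm a b h1).1) (Ne.symm (hm a' b' h2).1) hne
        (by rw [h3, h4, h])
  have hms : ∀ a b, a ≠ b → m a b = m b a := by
    intro a b hab
    exact (hminj a b b a hab (Ne.symm hab)).2 (hcs a b)
  have hm0 : ∀ d : Fin 6, d ≠ 0 → m 0 d = d := by
    intro d hd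
    by_contra hne
    exact hcne 0 (m 0 d) d (Ne.symm (hm 0 d (Ne.symm hd)).1) (Ne.symm hd) hne (hm 0 d (Ne.symm hd)).2
  have hmne : ∀ a b d, a ≠ b → a ≠ d → b ≠ d → m a b ≠ m a d := by
    intro a b d hab had hbd h
    exact hcne a b d hab had hbd ((hminj a b a d hab had).1 h)
  have hm00 : ∀ a b : Fin 6, a ≠ b → m a b ≠ 0 := fun a b hab => (hm a b hab).1
  have hmv : ∀ a b : Fin 6, a ≠ 0 → b ≠ 0 → a ≠ b → m a b ≠ a := by
    intro a b ha hb hab h
    have h1 := hmne a b 0 hab ha hb
    rw [hms a 0 ha, hm0 a ha] at h1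
    exact h1 h
  have hmv' : ∀ a b : Fin 6, a ≠ 0 → b ≠ 0 → a ≠ b → m a b ≠ b := by
    intro a b ha hb hab h
    rw [hms a b hab] at h
    exact hmv b a hb ha (Ne.symm hab) h
  -- apply the classification of tables
  have hcl := tables_classify
    (m 1 2) ⟨hm00 1 2 (by decide), hmv 1 2 (by decide) (by decide) (by decide), hmv' 1 2 (by decide) (by decide) (by decide)⟩
    (m 1 3) ⟨hm00 1 3 (by decide), hmv 1 3 (by decide) (by decide) (by decide), hmv' 1 3 (by decide) (by decide) (by decide), hmne 1 3 2 (by decide) (by decide) (by decide)⟩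
    (m 1 4) ⟨hm00 1 4 (by decide), hmv 1 4 (by decide) (by decide) (by decide), hmv' 1 4 (by decide) (by decide) (by decide), hmne 1 4 2 (by decide) (by decide) (by decide), hmne 1 4 3 (by decide) (by decide) (by decide)⟩
    (m 1 5) ⟨hm00 1 5 (by decide), hmv 1 5 (by decide) (by decide) (by decide), hmv' 1 5 (by decide) (by decide) (by decide), hmne 1 5 2 (by decide) (by decide) (by decide), hmne 1 5 3 (by decide) (by decide) (by decide), hmne 1 5 4 (by decide) (by decide) (by decide)⟩
    (m 2 3) ⟨hm00 2 3 (by decide), hmv 2 3 (by decide) (by decide) (by decide), hmv' 2 3 (by decide) (by decide) (by decide), (by rw [hms 1 2 (by decide)]; exact hmne 2 3 1 (by decide) (by decide) (by decide)), (by rw [hms 2 3 (by decide), hms 1 3 (by decide)]; exact hmne 3 2 1 (by decide) (by decide) (by decide))⟩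
    (m 2 4) ⟨hm00 2 4 (by decide), hmv 2 4 (by decide) (by decide) (by decide), hmv' 2 4 (by decide) (by decide) (by decide), (by rw [hms 1 2 (by decide)]; exact hmne 2 4 1 (by decide) (by decide) (by decide)), (by rw [hms 2 4 (by decide), hms 1 4 (by decide)]; exact hmne 4 2 1 (by decide) (by decide) (by decide)), hmne 2 4 3 (by decide) (by decide) (by decide)⟩
    (m 2 5) ⟨hm00 2 5 (by decide), hmv 2 5 (by decide) (by decide) (by decide), hmv' 2 5 (by decide) (by decide) (by decide), (by rw [hms 1 2 (by decide)]; exact hmne 2 5 1 (by decide) (by decide) (by decide)), (by rw [hms 2 5 (by decide), hms 1 5 (by decide)]; exact hmne 5 2 1 (by decide) (by decide) (by decide)), hmne 2 5 3 (by decide) (by decide) (by decide), hmne 2 5 4 (by decide) (by decide) (by decide)⟩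
    (m 3 4) ⟨hm00 3 4 (by decide), hmv 3 4 (by decide) (by decide) (by decide), hmv' 3 4 (by decide) (by decide) (by decide), (by rw [hms 1 3 (by decide)]; exact hmne 3 4 1 (by decide) (by decide) (by decide)), (by rw [hms 3 4 (by decide), hms 1 4 (by decide)]; exact hmne 4 3 1 (by decide) (by decide) (by decide)), (by rw [hms 2 3 (by decide)]; exact hmne 3 4 2 (by decide) (by decide) (by decide)), (by rw [hms 3 4 (by decide), hms 2 4 (by decide)]; exact hmne 4 3 2 (by decide) (by decide) (by decide))⟩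
    (m 3 5) ⟨hm00 3 5 (by decide), hmv 3 5 (by decide) (by decide) (by decide), hmv' 3 5 (by decide) (by decide) (by decide), (by rw [hms 1 3 (by decide)]; exact hmne 3 5 1 (by decide) (by decide) (by decide)), (by rw [hms 3 5 (by decide), hms 1 5 (by decide)]; exact hmne 5 3 1 (by decide) (by decide) (by decide)), (by rw [hms 2 3 (by decide)]; exact hmne 3 5 2 (by decide) (by decide) (by decide)), (by rw [hms 3 5 (by decide), hms 2 5 (by decide)]; exact hmne 5 3 2 (by decide) (by decide) (by decide)), hmne 3 5 4 (by decide) (by decide) (by decide)⟩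
    (m 4 5) ⟨hm00 4 5 (by decide), hmv 4 5 (by decide) (by decide) (by decide), hmv' 4 5 (by decide) (by decide) (by decide), (by rw [hms 1 4 (by decide)]; exact hmne 4 5 1 (by decide) (by decide) (by decide)), (by rw [hms 4 5 (by decide), hms 1 5 (by decide)]; exact hmne 5 4 1 (by decide) (by decide) (by decide)), (by rw [hms 2 4 (by decide)]; exact hmne 4 5 2 (by decide) (by decide) (by decide)), (by rw [hms 4 5 (by decide), hms 2 5 (by decide)]; exact hmne 5 4 2 (by decide) (by decide) (by decide)), (by rw [hms 3 4 (by decide)]; exact hmne 4 5 3 (by decide) (by decide) (by decide)), (by rw [hms 4 5 (by decide), hms 3 5 (by decide)]; exact hmne 5 4 3 (by decide) (by decide) (by decide))⟩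
  have htab : ∃ i : Fin 6, [m 1 2, m 1 3, m 1 4, m 1 5, m 2 3, m 2 4, m 2 5, m 3 4, m 3 5, m 4 5] = tb i := by
    have hcl' := List.elem_iff.1 hcl
    simp only [List.mem_cons, List.not_mem_nil, or_false] at hcl'
    rcases hcl' with h | h | h | h | h | h
    · exact ⟨0, h⟩
    · exact ⟨1, h⟩
    · exact ⟨2, h⟩
    · exact ⟨3, h⟩
    · exact ⟨4, h⟩
    · exact ⟨5, h⟩
  obtain ⟨i, hi⟩ := htab
  refine ⟨i, ?_⟩
  have hagree : ∀ a b : Fin 6, a ≠ b → fc i a b = m a b := by
    intro a b hab
    unfold fc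
    rw [← hi]
    have h1 := hm0 1 (by decide)
    have h2 := hm0 2 (by decide)
    have h3 := hm0 3 (by decide)
    have h4 := hm0 4 (by decide)
    have h5 := hm0 5 (by decide)
    have s1 := hms 1 0 (by decide)
    have s2 := hms 2 0 (by decide)
    have s3 := hms 3 0 (by decide)
    have s4 := hms 4 0 (by decide)
    have s5 := hms 5 0 (by decide)
    have s12 := hms 2 1 (by decide)
    have s13 := hms 3 1 (by decide)
    have s14 := hms 4 1 (by decide)
    have s15 := hms 5 1 (by decide)
    have s23 := hms 3 2 (by decide)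
    have s24 := hms 4 2 (by decide)
    have s25 := hms 5 2 (by decide)
    have s34 := hms 4 3 (by decide)
    have s35 := hms 5 3 (by decide)
    have s45 := hms 5 4 (by decide)
    fin_cases a <;> fin_cases b <;> first
      | exact absurd rfl hab
      | (simp only [Fin.isValue, Fin.zero_eta, Fin.mk_one, Fin.reduceFinMk]; first
          | exact h1.symm | exact h2.symm | exact h3.symm | exact h4.symm | exact h5.symm
          | exact (s1.trans h1).symm | exact (s2.trans h2).symm | exact (s3.trans h3).symm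
          | exact (s4.trans h4).symm | exact (s5.trans h5).symm
          | exact rfl
          | exact s12.symm | exact s13.symm | exact s14.symm | exact s15.symm
          | exact s23.symm | exact s24.symm | exact s25.symm | exact s34.symm | exact s35.symm
          | exact s45.symm)
  have hle : H ≤ St (fc i) := by
    intro h hh a b a' b' hab hab'
    have hh' : φ h o = o := (hmem h).1 hh
    have hhinv : (φ h)⁻¹ o = o := by
      rw [inv_eq_iff_eq, hh']
    have hcc : ∀ x y, c (h x) (h y) = φ h (c x y) := by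
      intro x y
      show φ (swap (h x) (h y)) o = φ h (φ (swap x y) o)
      rw [swap_apply_apply, map_mul, map_mul, map_inv]
      simp only [mul_apply, hhinv]
    rw [hagree a b hab, hagree a' b' hab', hagree _ _ (h.injective.ne hab),
      hagree _ _ (h.injective.ne hab'), hminj _ _ _ _ hab hab',
      hminj _ _ _ _ (h.injective.ne hab) (h.injective.ne hab'), hcc, hcc,
      (φ h).injective.eq_iff]
  have hcard : Nat.card H = 120 := by
    have h := Subgroup.card_mul_index H
    rw [hH, Nat.card_perm] at h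
    simp [Nat.factorial] at h
    omega
  exact Subgroup.eq_of_le_of_card_ge hle (by rw [card_St, hcard])

/-- classification of the subgroups of index six. -/
theorem classify (H : Subgroup G6) (hH : H.index = 6) :
    (∃ a : Fin 6, H = stabilizer G6 a) ∨ (∃ i, H = St (fc i)) := by
  obtain ⟨X, _, _, φ, o, hX, hbij, hmem⟩ := exists_action H hH
  rcases dichotomy φ hbij with h | h
  · left
    exact case_swaps φ o H hH hbij.1 hmem h
  · right
    exact case_fpf φ o hX hbij H hH hmem h

theorem index_stab (a : Fin 6) : (stabilizer G6 a).index = 6 := by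
  rw [index_stabilizer_of_transitive, Nat.card_eq_fintype_card]
  simp

theorem stab_ne_St (a i : Fin 6) : stabilizer G6 a ≠ St (fc i) := by
  intro h
  obtain ⟨b, c, hb, hc, hbc⟩ : ∃ b c : Fin 6, b ≠ a ∧ c ≠ a ∧ b ≠ c := by
    clear h
    revert a
    decide
  have : swap b c ∈ stabilizer G6 a := by
    show swap b c • a = a
    exact swap_apply_of_ne_of_ne (Ne.symm hb) (Ne.symm hc)
  rw [h] at this
  exact swap_not_mem_St i b c hbc this

theorem stab_inj (a b : Fin 6) (h : stabilizer G6 a = stabilizer G6 b) : a = b := by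
  by_contra hne
  obtain ⟨c, hca, hcb⟩ : ∃ c : Fin 6, c ≠ a ∧ c ≠ b := by
    clear h hne
    revert a b
    decide
  have : swap a c ∈ stabilizer G6 b := by
    show swap a c • b = b
    exact swap_apply_of_ne_of_ne (Ne.symm hne) (Ne.symm hcb)
  rw [← h] at this
  have h2 : swap a c • a = a := this
  have h3 : swap a c a = a := h2
  rw [swap_apply_left] at h3
  exact hca h3

/-- distinguishing elements -/
def wit : List G6 := [swap 2 3 * swap 4 5, swap 2 4 * swap 3 5, swap 2 5 * swap 3 4, swap 1 2 * swap 4 5, swap 1 2 * swap 3 4, swap 1 3 * swap 4 5, swap 1 4 * swap 3 5]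

theorem wit_inj : ∀ i j : Fin 6, wit.map (chk (fc i)) = wit.map (chk (fc j)) → i = j := by
  decide +kernel

theorem St_inj (i j : Fin 6) (h : St (fc i) = St (fc j)) : i = j := by
  apply wit_inj
  apply List.map_congr_left
  intro g _
  have h1 := mem_St_iff_chk _ (fc_symm i) g
  have h2 := mem_St_iff_chk _ (fc_symm j) g
  rw [h, h2] at h1
  cases h3 : chk (fc i) g <;> cases h4 : chk (fc j) g <;> simp_all

theorem card_index_six : Nat.card {H : Subgroup G6 // H.index = 6} = 12 := by
  let F : Fin 6 ⊕ Fin 6 → {H : Subgroup G6 // H.index = 6} := fun s =>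
    match s with
    | Sum.inl a => ⟨stabilizer G6 a, index_stab a⟩
    | Sum.inr i => ⟨St (fc i), index_St i⟩
  have hF : Function.Bijective F := by
    constructor
    · rintro (a | a) (b | b) h
      · exact congrArg _ (stab_inj a b (congrArg Subtype.val h))
      · exact absurd (congrArg Subtype.val h) (stab_ne_St a b)
      · exact absurd (congrArg Subtype.val h).symm (stab_ne_St b a)
      · exact congrArg _ (St_inj a b (congrArg Subtype.val h))
    · rintro ⟨H, hH⟩
      rcases classify H hH with ⟨a, rfl⟩ | ⟨i, rfl⟩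
      · exact ⟨Sum.inl a, rfl⟩
      · exact ⟨Sum.inr i, rfl⟩
  rw [← Nat.card_congr (Equiv.ofBijective F hF), Nat.card_eq_fintype_card]
  simp

/-- every subgroup of index six is a conjugate of one of two fixed ones -/
theorem conj_classes (H : Subgroup G6) (hH : H.index = 6) :
    ∃ g : G6, Subgroup.map (MulAut.conj g).toMonoidHom (stabilizer G6 (0 : Fin 6)) = H ∨
      Subgroup.map (MulAut.conj g).toMonoidHom (St (fc 0)) = H := by
  rcases classify H hH with ⟨a, rfl⟩ | ⟨i, rfl⟩
  · refine ⟨swap 0 a, Or.inl ?_⟩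
    have := stabilizer_smul_eq_stabilizer_map_conj (G := G6) (swap (0 : Fin 6) a) (0 : Fin 6)
    rw [← this]
    congr 1
  · exact ⟨(gi i)⁻¹, Or.inr (St_fc_conj i)⟩

theorem not_conj (g : G6) : Subgroup.map (MulAut.conj g).toMonoidHom (stabilizer G6 (0 : Fin 6)) ≠ St (fc 0) := by
  intro h
  have h1 : swap (1 : Fin 6) 2 ∈ stabilizer G6 (0 : Fin 6) := by
    show swap (1 : Fin 6) 2 • (0 : Fin 6) = 0
    decide
  have h2 : (MulAut.conj g) (swap (1 : Fin 6) 2) ∈ St (fc 0) := by
    rw [← h]
    exact ⟨_, h1, rfl⟩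
  have h3 : (MulAut.conj g) (swap (1 : Fin 6) 2) = swap (g 1) (g 2) := by
    rw [MulAut.conj_apply, swap_apply_apply]
  rw [h3] at h2
  exact swap_not_mem_St 0 _ _ (g.injective.ne (by decide)) h2

end Cfsg.Agent.Lib.Geo.S6Index
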