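import Mathlib

set_option autoImplicit false

namespace Cfsg.Agent.Lib.Geo.Singer

variable (F K : Type*) [Field F] [Field K] [Algebra F K]

/-- left multiplication as a monoid map. -/
abbrev lm : K →* Module.End F K :=
  ((Algebra.lmul F K : K →ₐ[F] Module.End F K) : K →* Module.End F K)

/-- the Singer group of multiplications. -/
abbrev MM : Subgroup (Module.End F K)ˣ := (Units.map (lm F K)).range

variable {F K}

/-- the multiplication by the unit `a`. -/
def mu (a : Kˣ) : (Module.End F K)ˣ := Units.map (lm F K) a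

theorem mu_apply (a : Kˣ) (x : K) : ((mu a : (Module.End F K)ˣ) : Module.End F K) x = a * x := rfl

theorem mu_inv_apply (a : Kˣ) (x : K) :
    (((mu a : (Module.End F K)ˣ)⁻¹ : (Module.End F K)ˣ) : Module.End F K) x = (a⁻¹ : Kˣ) * x := by
  have : (mu a : (Module.End F K)ˣ)⁻¹ = mu a⁻¹ := by
    simp [mu]
  rw [this, mu_apply]

theorem mem_MM {u : (Module.End F K)ˣ} : u ∈ MM F K ↔ ∃ a : Kˣ, mu a = u := Iff.rfl

theorem mu_mem (a : Kˣ) : (mu a : (Module.End F K)ˣ) ∈ MM F K := ⟨a, rfl⟩

theorem mu_mul (a b : Kˣ) : (mu (a * b) : (Module.End F K)ˣ) = mu a * mu b := by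
  simp [mu]

theorem mu_injective : Function.Injective (mu : Kˣ → (Module.End F K)ˣ) := by
  intro a b h
  have := congrArg (fun u : (Module.End F K)ˣ => (u : Module.End F K) 1) h
  simp only [mu_apply, mul_one] at this
  exact Units.ext this

/-- the semilinear generators: a field automorphism as an element of `GL`. -/
noncomputable def sg (σ : K ≃ₐ[F] K) : (Module.End F K)ˣ :=
  LinearMap.GeneralLinearGroup.ofLinearEquiv σ.toLinearEquiv

theorem sg_apply (σ : K ≃ₐ[F] K) (x : K) : (sg σ : Module.End F K) x = σ x := rfl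

theorem u_mul_apply (u v : (Module.End F K)ˣ) (x : K) :
    ((u * v : (Module.End F K)ˣ) : Module.End F K) x = (u : Module.End F K) ((v : Module.End F K) x) := rfl

theorem u_inv_self (u : (Module.End F K)ˣ) (x : K) :
    ((u⁻¹ : (Module.End F K)ˣ) : Module.End F K) ((u : Module.End F K) x) = x := by
  rw [← u_mul_apply, inv_mul_cancel]
  rfl

theorem u_self_inv (u : (Module.End F K)ˣ) (x : K) :
    (u : Module.End F K) (((u⁻¹ : (Module.End F K)ˣ) : Module.End F K) x) = x := by
  rw [← u_mul_apply, mul_inv_cancel]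
  rfl

theorem sg_conj_mu (σ : K ≃ₐ[F] K) (a : Kˣ) :
    (sg σ : (Module.End F K)ˣ) * mu a * (sg σ)⁻¹ = mu (Units.map (σ : K →* K) a) := by
  ext x
  obtain ⟨y, rfl⟩ := σ.surjective x
  have h1 : (((sg σ)⁻¹ : (Module.End F K)ˣ) : Module.End F K) (σ y) = y := by
    exact u_inv_self (sg σ) y
  rw [u_mul_apply, u_mul_apply, h1, mu_apply, sg_apply, mu_apply]
  simp

theorem card_units_K [Fintype K] : Nat.card Kˣ = Fintype.card K - 1 := by
  classical
  rw [Nat.card_eq_fintype_card, Fintype.card_units]

variable [Fintype K]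

instance finite_MM : Finite (MM F K) := by
  have : Finite (Kˣ) := inferInstance
  exact Finite.of_surjective (fun a : Kˣ => (⟨mu a, mu_mem a⟩ : MM F K))
    (by rintro ⟨_, a, rfl⟩; exact ⟨a, rfl⟩)

theorem card_MM : Nat.card (MM F K) = Fintype.card K - 1 := by
  have : Function.Bijective (fun a : Kˣ => (⟨mu a, mu_mem a⟩ : MM F K)) := by
    constructor
    · intro a b h
      exact mu_injective (congrArg Subtype.val h)
    · rintro ⟨_, a, rfl⟩
      exact ⟨a, rfl⟩
  rw [← Nat.card_eq_of_bijective _ this, card_units_K]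

theorem map_conj_eq_of_le (g : (Module.End F K)ˣ)
    (h : (MM F K).map (MulAut.conj g).toMonoidHom ≤ MM F K) :
    (MM F K).map (MulAut.conj g).toMonoidHom = MM F K := by
  apply Subgroup.eq_of_le_of_card_ge h
  rw [Subgroup.card_map_of_injective (MulAut.conj g).injective]

theorem map_conj_eq_of_ge (g : (Module.End F K)ˣ)
    (h : MM F K ≤ (MM F K).map (MulAut.conj g).toMonoidHom) :
    (MM F K).map (MulAut.conj g).toMonoidHom = MM F K := by
  haveI : Finite ((MM F K).map (MulAut.conj g).toMonoidHom) := by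
    have := finite_MM (F := F) (K := K)
    exact Finite.of_equiv _ ((MM F K).equivMapOfInjective _ (MulAut.conj g).injective).toEquiv
  symm
  apply Subgroup.eq_of_le_of_card_ge h
  rw [Subgroup.card_map_of_injective (MulAut.conj g).injective]

theorem conj_mem_iff {g : (Module.End F K)ˣ} {u : (Module.End F K)ˣ} :
    u ∈ (MM F K).map (MulAut.conj g).toMonoidHom ↔ ∃ a : Kˣ, g * mu a * g⁻¹ = u := by
  constructor
  · rintro ⟨_, ⟨a, rfl⟩, rfl⟩
    exact ⟨a, rfl⟩
  · rintro ⟨a, rfl⟩
    exact ⟨_, mu_mem a, rfl⟩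

/-- the elements of `M` normalised by `g` form the whole of `K` as soon as they generate it. -/
theorem sg_mem_normalizer (σ : K ≃ₐ[F] K) :
    sg σ ∈ Subgroup.normalizer ((MM F K : Subgroup (Module.End F K)ˣ) : Set (Module.End F K)ˣ) := by
  rw [Subgroup.mem_normalizer_iff_map_conj_eq]
  apply map_conj_eq_of_le
  rintro _ ⟨_, ⟨a, rfl⟩, rfl⟩
  exact ⟨Units.map (σ : K →* K) a, (sg_conj_mu σ a).symm⟩

theorem mu_mem_normalizer (a : Kˣ) :
    mu a ∈ Subgroup.normalizer ((MM F K : Subgroup (Module.End F K)ˣ) : Set (Module.End F K)ˣ) :=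
  Subgroup.le_normalizer (mu_mem a)

/-- every element of the normaliser is a multiplication composed with a field automorphism. -/
theorem exists_of_mem_normalizer {g : (Module.End F K)ˣ}
    (hg : g ∈ Subgroup.normalizer ((MM F K : Subgroup (Module.End F K)ˣ) : Set (Module.End F K)ˣ)) :
    ∃ (a : Kˣ) (σ : K ≃ₐ[F] K), g = mu a * sg σ := by
  have hg1 : (g : Module.End F K) 1 ≠ 0 := by
    intro h
    have := u_inv_self g 1
    rw [h, map_zero] at this
    exact zero_ne_one this
  let a : Kˣ := Units.mk0 _ hg1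
  let h : (Module.End F K)ˣ := (mu (F := F) a)⁻¹ * g
  have hN : h ∈ Subgroup.normalizer ((MM F K : Subgroup (Module.End F K)ˣ) : Set (Module.End F K)ˣ) :=
    Subgroup.mul_mem _ (Subgroup.inv_mem _ (mu_mem_normalizer a)) hg
  have h1 : (h : Module.End F K) 1 = 1 := by
    show (((mu a)⁻¹ * g : (Module.End F K)ˣ) : Module.End F K) 1 = 1
    rw [u_mul_apply, mu_inv_apply]
    show ((a⁻¹ : Kˣ) : K) * (a : K) = 1
    simp
  have hi1 : ((h⁻¹ : (Module.End F K)ˣ) : Module.End F K) 1 = 1 := by
    conv_lhs => rw [← h1]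
    exact u_inv_self h 1
  have hmap := Subgroup.mem_normalizer_iff_map_conj_eq.1 hN
  have hconj : ∀ x : Kˣ, h * mu x * h⁻¹ ∈ MM F K := by
    intro x
    rw [← hmap]
    exact ⟨_, mu_mem x, rfl⟩
  have hmul : ∀ x y : K, (h : Module.End F K) (x * y) =
      (h : Module.End F K) x * (h : Module.End F K) y := by
    intro x y
    by_cases hx : x = 0
    · simp [hx]
    let x' : Kˣ := Units.mk0 x hx
    obtain ⟨b, hb⟩ := hconj x'
    have hbv : (b : K) = (h : Module.End F K) x := by
      have hb' : mu (F := F) b = h * mu x' * h⁻¹ := hb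
      have := congrArg (fun u : (Module.End F K)ˣ => (u : Module.End F K) 1) hb'
      simp only [mu_apply, mul_one] at this
      rw [this, u_mul_apply, u_mul_apply, hi1, mu_apply, mul_one]
      rfl
    have hb2 : mu b * h = h * mu x' := by
      show Units.map (lm F K) b * h = _
      rw [hb, inv_mul_cancel_right]
    have := congrArg (fun u : (Module.End F K)ˣ => (u : Module.End F K) y) hb2
    simp only [u_mul_apply, mu_apply] at this
    rw [← hbv]
    exact this.symm
  let σ : K ≃ₐ[F] K := AlgEquiv.ofLinearEquiv (LinearMap.GeneralLinearGroup.generalLinearEquiv F K h) h1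
    hmul
  refine ⟨a, σ, ?_⟩
  have : h = sg σ := by
    ext x
    rfl
  rw [← this]
  show g = mu a * ((mu a)⁻¹ * g)
  rw [mul_inv_cancel_left]

theorem card_normalizer [Fintype F] :
    Nat.card (Subgroup.normalizer ((MM F K : Subgroup (Module.End F K)ˣ) : Set (Module.End F K)ˣ)) =
      Module.finrank F K * (Fintype.card K - 1) := by
  have : FiniteDimensional F K := Module.Finite.of_finite
  let f : Kˣ × (K ≃ₐ[F] K) →
      Subgroup.normalizer ((MM F K : Subgroup (Module.End F K)ˣ) : Set (Module.End F K)ˣ) :=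
    fun p => ⟨mu (F := F) p.1 * sg p.2, Subgroup.mul_mem _ (mu_mem_normalizer _) (sg_mem_normalizer _)⟩
  have hf : Function.Bijective f := by
    constructor
    · rintro ⟨a, σ⟩ ⟨b, τ⟩ h
      have h0 : (mu a * sg σ : (Module.End F K)ˣ) = mu b * sg τ := congrArg Subtype.val h
      have h1 := congrArg (fun u : (Module.End F K)ˣ => (u : Module.End F K) 1) h0
      simp only [u_mul_apply, sg_apply, map_one, mu_apply, mul_one] at h1
      have hab : a = b := Units.ext h1
      subst hab
      have h2 : (sg σ : (Module.End F K)ˣ) = sg τ := mul_left_cancel h0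
      have hστ : σ = τ := by
        ext x
        exact congrArg (fun u : (Module.End F K)ˣ => (u : Module.End F K) x) h2
      rw [hστ]
    · rintro ⟨g, hg⟩
      obtain ⟨a, σ, rfl⟩ := exists_of_mem_normalizer hg
      exact ⟨(a, σ), rfl⟩
  rw [← Nat.card_eq_of_bijective f hf, Nat.card_prod, IsGalois.card_aut_eq_finrank,
    card_units_K, mul_comm]

/-- the key lemma for intersections: if the elements of `M` inside `g M g⁻¹` generate `K`,
then `g` normalises `M`. -/
theorem map_conj_eq_of_adjoin_eq_top (g : (Module.End F K)ˣ) [Fintype F]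
    (hS : IntermediateField.adjoin F {x : K | ∃ a : Kˣ, (a : K) = x ∧
      mu a ∈ (MM F K).map (MulAut.conj g).toMonoidHom ⊓ MM F K} = ⊤) :
    (MM F K).map (MulAut.conj g).toMonoidHom = MM F K := by
  have : FiniteDimensional F K := Module.Finite.of_finite
  -- the subalgebra of `x` with `g⁻¹ lmul x g` a multiplication
  let T : Subalgebra F K :=
    { carrier := {x | ∃ y : K, ∀ z, ((g⁻¹ : (Module.End F K)ˣ) : Module.End F K)
        (x * (g : Module.End F K) z) = y * z}
      mul_mem' := by
        rintro x₁ x₂ ⟨y₁, h₁⟩ ⟨y₂, h₂⟩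
        refine ⟨y₁ * y₂, fun z => ?_⟩
        have h3 : ∀ w, x₂ * (g : Module.End F K) w = (g : Module.End F K) (y₂ * w) := by
          intro w
          rw [← h₂ w, u_self_inv]
        rw [mul_assoc, h3, h₁, mul_assoc]
      add_mem' := by
        rintro x₁ x₂ ⟨y₁, h₁⟩ ⟨y₂, h₂⟩
        refine ⟨y₁ + y₂, fun z => ?_⟩
        rw [add_mul, map_add, h₁, h₂, add_mul]
      algebraMap_mem' := by
        intro c
        refine ⟨algebraMap F K c, fun z => ?_⟩
        rw [← Algebra.smul_def, ← Algebra.smul_def, map_smul, u_inv_self] }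
  have hT : IntermediateField.adjoin F {x : K | ∃ a : Kˣ, (a : K) = x ∧
      mu a ∈ (MM F K).map (MulAut.conj g).toMonoidHom ⊓ MM F K} ≤
      subalgebraEquivIntermediateField T := by
    rw [IntermediateField.adjoin_le_iff]
    rintro x ⟨a, rfl, ha, -⟩
    obtain ⟨b, hb⟩ := conj_mem_iff.1 ha
    rw [SetLike.mem_coe, mem_subalgebraEquivIntermediateField]
    refine ⟨b, fun z => ?_⟩
    have h1 : g * mu b = mu a * g := by
      rw [← hb, inv_mul_cancel_right]
    have h2 := congrArg (fun u : (Module.End F K)ˣ => (u : Module.End F K) z) h1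
    simp only [u_mul_apply, mu_apply] at h2
    rw [← h2, u_inv_self]
  rw [hS] at hT
  apply map_conj_eq_of_ge
  rintro _ ⟨a, rfl⟩
  have hx : (a : K) ∈ T := by
    have : (a : K) ∈ subalgebraEquivIntermediateField T := hT IntermediateField.mem_top
    rwa [mem_subalgebraEquivIntermediateField] at this
  obtain ⟨y, hy⟩ := hx
  have hy0 : y ≠ 0 := by
    intro h0
    have h1 := hy 1
    rw [h0, zero_mul] at h1
    have h2 := congrArg (g : Module.End F K) h1
    rw [u_self_inv, map_zero] at h2
    have h3 : (g : Module.End F K) 1 = 0 := by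
      have := (mul_eq_zero.1 h2).resolve_left a.ne_zero
      exact this
    have h4 := u_inv_self g 1
    rw [h3, map_zero] at h4
    exact zero_ne_one h4
  let b : Kˣ := Units.mk0 y hy0
  refine conj_mem_iff.2 ⟨b, ?_⟩
  have h1 : g * mu b = mu a * g := by
    ext z
    rw [u_mul_apply, u_mul_apply, mu_apply, mu_apply]
    show (g : Module.End F K) (y * z) = _
    rw [← hy z, u_self_inv]
  rw [h1, mul_inv_cancel_right]
  rfl

end Cfsg.Agent.Lib.Geo.Singer
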