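import Mathlib
import Cfsg.Agent.Lib.Amalgam.Zsig

set_option autoImplicit false

/-! Abelian subgroups of order `q^n - 1` of `GL_n(q)` are the Singer cycles. -/

namespace Cfsg.Agent.Lib.Geo

open Module Polynomial

/-- No proper prime power is one less than a power of two. -/
theorem not_prime_pow_add_one {p k a : ℕ} (hp : p.Prime) (hk : 2 ≤ k) (h : p ^ k + 1 = 2 ^ a) : False := by
  have hpk : 2 ≤ p ^ k := le_trans hp.two_le (Nat.le_self_pow (by omega) p)
  have ha0 : a ≠ 0 := by
    rintro rfl
    rw [pow_zero] at h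
    omega
  have hodd : Odd p := by
    rcases hp.eq_two_or_odd' with h2 | h2
    · subst h2
      exfalso
      have e1 : Even (2 ^ k) := (Nat.even_pow.2 ⟨even_two, by omega⟩)
      have e2 : Even (2 ^ a) := (Nat.even_pow.2 ⟨even_two, ha0⟩)
      rw [← h] at e2
      have e3 : Odd (2 ^ k + 1) := e1.add_one
      exact (Nat.not_even_iff_odd.2 e3) e2
    · exact h2
  obtain ⟨s, hs⟩ := hodd
  rcases Nat.even_or_odd' k with ⟨j, rfl | rfl⟩
  · -- even exponent
    have hoy : Odd (p ^ j) := (Odd.pow ⟨s, hs⟩)
    obtain ⟨y, hy⟩ := hoy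
    have e1 : p ^ (2 * j) = (p ^ j) ^ 2 := by rw [mul_comm, pow_mul]
    rw [e1, hy] at h
    have e2 : a = 1 ∨ 2 ≤ a := by omega
    rcases e2 with rfl | e2
    · rw [e1, hy] at hpk
      nlinarith
    · obtain ⟨b, rfl⟩ : ∃ b, a = b + 2 := ⟨a - 2, by omega⟩
      rw [pow_add] at h
      have h4 : (2 * y + 1) ^ 2 + 1 = 4 * (y * y + y) + 2 := by ring
      rw [h4] at h
      omega
  · -- odd exponent
    have key : ∀ i : ℕ, ∃ t : ℕ, p ^ (2 * i + 1) + 1 = (p + 1) * (2 * t + 1) := by
      intro i
      induction i with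
      | zero => exact ⟨0, by simp⟩
      | succ i ih =>
        obtain ⟨t, ht⟩ := ih
        refine ⟨t * p * p + 2 * s * s + s, ?_⟩
        have e3 : p ^ (2 * (i + 1) + 1) = p ^ (2 * i + 1) * p * p := by ring
        rw [e3]
        generalize p ^ (2 * i + 1) = Z at ht ⊢
        subst hs
        zify at ht ⊢
        linear_combination (((2 : ℤ) * s + 1) * (2 * s + 1)) * ht
    obtain ⟨t, ht⟩ := key j
    have hd : 2 * t + 1 ∣ 2 ^ a := by
      rw [← h, ht]
      exact Dvd.intro_left _ rfl
    obtain ⟨b, -, hb⟩ := (Nat.dvd_prime_pow Nat.prime_two).1 hd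
    have hb0 : b = 0 := by
      by_contra hb0
      have e1 : Even (2 ^ b) := (Nat.even_pow.2 ⟨even_two, hb0⟩)
      rw [← hb] at e1
      have : Odd (2 * t + 1) := ⟨t, rfl⟩
      exact (Nat.not_even_iff_odd.2 this) e1
    rw [hb0, pow_zero] at hb
    have ht0 : t = 0 := by omega
    rw [ht0] at ht
    simp only [mul_zero, zero_add, mul_one] at ht
    have e2 : p ^ (2 * j + 1) = p ^ 1 := by simpa using ht
    have := Nat.pow_right_injective hp.two_le e2
    omega

variable {F K : Type*} [Field F] [Fintype F] [Field K] [Fintype K] [Algebra F K]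

/-- Existence of a primitive prime divisor in the needed range. -/
theorem exists_primitive_prime (n : ℕ) (hn : 2 ≤ n) (hex1 : ¬ (n = 6 ∧ Fintype.card F = 2))
    (hex2 : ¬ (n = 2 ∧ (Fintype.card F).Prime ∧ ∃ a : ℕ, Fintype.card F + 1 = 2 ^ a)) :
    ∃ r : ℕ, r.Prime ∧ r ∣ Fintype.card F ^ n - 1 ∧ ∀ k : ℕ, 0 < k → k < n → ¬ r ∣ Fintype.card F ^ k - 1 := by
  have hq : 2 ≤ Fintype.card F := Fintype.one_lt_card
  rcases eq_or_lt_of_le hn with rfl | hn3
  · rcases Nat.eq_two_pow_or_exists_odd_prime_and_dvd (Fintype.card F + 1) with ⟨a, ha⟩ | ⟨r, hr, hrd, hro⟩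
    · exfalso
      apply hex2
      refine ⟨rfl, ?_, a, ha⟩
      obtain ⟨p, -, m, hp, hcard⟩ := FiniteField.card' F
      by_cases hm : (m : ℕ) = 1
      · rw [hcard, hm, pow_one]
        exact hp
      · exfalso
        have hm2 : 2 ≤ (m : ℕ) := by
          have := m.pos
          omega
        rw [hcard] at ha
        exact not_prime_pow_add_one hp hm2 ha
    · refine ⟨r, hr, ?_, ?_⟩
      · have e1 : Fintype.card F ^ 2 - 1 = (Fintype.card F + 1) * (Fintype.card F - 1) := by
          obtain ⟨t, ht⟩ : ∃ t, Fintype.card F = t + 1 := ⟨Fintype.card F - 1, by omega⟩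
          rw [ht]
          simp only [Nat.add_sub_cancel]
          have : (t + 1) ^ 2 = (t + 1 + 1) * t + 1 := by ring
          rw [this]
          simp
        rw [e1]
        exact Dvd.dvd.mul_right hrd _
      · intro k hk0 hk2
        have hk1 : k = 1 := by omega
        subst hk1
        rw [pow_one]
        intro h1
        have e2 : r ∣ (Fintype.card F + 1) - (Fintype.card F - 1) := Nat.dvd_sub hrd h1
        have e3 : (Fintype.card F + 1) - (Fintype.card F - 1) = 2 := by omega
        rw [e3] at e2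
        have e4 := (Nat.prime_dvd_prime_iff_eq hr Nat.prime_two).1 e2
        subst e4
        exact absurd hro (by decide)
  · exact Cfsg.Agent.Lib.Amalgam.Zsig.main_ge_three _ n hq (by omega) (fun h => hex1 ⟨h.2, h.1⟩)

/-- Counting modulo a prime for an invariant subspace without fixed vectors. -/
theorem prime_dvd_of_no_fixed {r : ℕ} [Fact r.Prime] {X : Module.End F K} (hXr : X ^ r = 1) (W : Submodule F K)
    (hW : ∀ w ∈ W, X w ∈ W) (hfix : ∀ w ∈ W, X w = w → w = 0) :
    r ∣ Fintype.card F ^ finrank F W - 1 := by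
  classical
  let f : Function.End W := fun w => ⟨X w, hW w w.2⟩
  have hpow : ∀ (i : ℕ) (w : W), (((f ^ i) w : W) : K) = (X ^ i) w := by
    intro i
    induction i with
    | zero => intro w; rfl
    | succ i ih =>
      intro w
      rw [pow_succ, pow_succ]
      exact ih (f w)
  have hf : f ^ r ^ 1 = 1 := by
    rw [pow_one]
    funext w
    apply Subtype.ext
    rw [hpow, hXr]
    rfl
  have h1 := Equiv.Perm.card_fixedPoints_modEq hf
  have h2 : Fintype.card f.fixedPoints = 1 := by
    rw [Fintype.card_eq_one_iff]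
    refine ⟨⟨0, ?_⟩, ?_⟩
    · show f 0 = 0
      apply Subtype.ext
      show X 0 = 0
      exact map_zero X
    · rintro ⟨w, hw⟩
      apply Subtype.ext
      apply Subtype.ext
      exact hfix w w.2 (congrArg Subtype.val hw)
  rw [h2, Module.card_eq_pow_finrank (K := F) (V := W)] at h1
  have h3 : 1 ≤ Fintype.card F ^ finrank F W := Nat.one_le_pow _ _ Fintype.card_pos
  exact (Nat.modEq_iff_dvd' h3).1 h1.symm

theorem commute_aeval {u X : Module.End F K} (h : Commute u X) (p : F[X]) : Commute u (aeval X p) := by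
  induction p using Polynomial.induction_on' with
  | add p q hp hq =>
    rw [map_add]
    exact hp.add_right hq
  | monomial n c =>
    rw [aeval_monomial]
    exact (Algebra.commute_algebraMap_right c u).mul_right (h.pow_right n)

/-- The Singer conjugacy theorem. -/
theorem singer_conj (n : ℕ) (hn : 2 ≤ n) (hdim : Module.finrank F K = n)
    (hex1 : ¬ (n = 6 ∧ Fintype.card F = 2))
    (hex2 : ¬ (n = 2 ∧ (Fintype.card F).Prime ∧ ∃ a : ℕ, Fintype.card F + 1 = 2 ^ a))
    (U : Subgroup (Module.End F K)ˣ) (hU : IsMulCommutative U) (hcard : Nat.card U = Fintype.card K - 1) :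
    ∃ g : (Module.End F K)ˣ, U.map (MulAut.conj g).toMonoidHom =
      (Units.map ((Algebra.lmul F K : K →ₐ[F] Module.End F K) : K →* Module.End F K)).range := by
  classical
  have hcardK : Fintype.card K = Fintype.card F ^ n := by
    rw [Module.card_eq_pow_finrank (K := F) (V := K), hdim]
  obtain ⟨r, hr, hrd, hrp⟩ := exists_primitive_prime (F := F) n hn hex1 hex2
  haveI : Fact r.Prime := ⟨hr⟩
  have hq : 2 ≤ Fintype.card F := Fintype.one_lt_card
  have hcardpos : 0 < Fintype.card K - 1 := by
    have : 1 < Fintype.card K := Fintype.one_lt_card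
    omega
  haveI : Finite U := Nat.finite_of_card_ne_zero (by omega)
  obtain ⟨x, hxo⟩ := exists_prime_orderOf_dvd_card' (G := U) r (by rw [hcard, hcardK]; exact hrd)
  -- the endomorphism
  obtain ⟨X, hX⟩ : ∃ X : Module.End F K, X = ((x : (Module.End F K)ˣ) : Module.End F K) := ⟨_, rfl⟩
  have hxr : (x : (Module.End F K)ˣ) ^ r = 1 := by
    have := pow_orderOf_eq_one x
    rw [hxo] at this
    have h2 := congrArg Subtype.val this
    simpa using h2
  have hXr : X ^ r = 1 := by
    rw [hX, ← Units.val_pow_eq_pow_val, hxr, Units.val_one]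
  have hX1 : X ≠ 1 := by
    intro h
    have h1 : (x : (Module.End F K)ˣ) = 1 := by
      apply Units.ext
      rw [← hX, h]
      rfl
    have h2 : x = 1 := Subtype.ext h1
    rw [h2, orderOf_one] at hxo
    exact hr.one_lt.ne hxo
  -- the prime is not the characteristic
  have hr0 : (r : F) ≠ 0 := by
    intro h0
    obtain ⟨t, ht⟩ := hrd
    have h1 : ((Fintype.card F ^ n - 1 : ℕ) : F) = 0 := by
      rw [ht, Nat.cast_mul, h0, zero_mul]
    have h2 : 1 ≤ Fintype.card F ^ n := Nat.one_le_pow _ _ (by omega)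
    rw [Nat.cast_sub h2, Nat.cast_pow, Nat.cast_card_eq_zero, zero_pow (by omega)] at h1
    simp at h1
  -- dimensions of subspaces without fixed vectors
  have hdimW : ∀ W : Submodule F K, (∀ w ∈ W, X w ∈ W) → (∀ w ∈ W, X w = w → w = 0) → W ≠ ⊥ → W = ⊤ := by
    intro W hW hfix hne
    have h1 := prime_dvd_of_no_fixed hXr W hW hfix
    have h2 : 0 < finrank F W := by
      rw [Module.finrank_pos_iff_of_free]
      exact Submodule.nontrivial_iff_ne_bot.2 hne
    have h3 : ¬ finrank F W < n := fun h => hrp _ h2 h h1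
    apply Submodule.eq_top_of_finrank_eq
    have h4 := Submodule.finrank_le W
    omega
  -- the sum of the powers
  obtain ⟨T, hT⟩ : ∃ T : Module.End F K, T = ∑ i ∈ Finset.range r, X ^ i := ⟨_, rfl⟩
  have hTX : T * (X - 1) = 0 := by
    rw [hT, geom_sum_mul, hXr, sub_self]
  have hCT : Commute T X := by
    rw [hT]
    exact Commute.sum_left _ _ _ fun i _ => (Commute.refl X).pow_left i
  have hTfix : ∀ v, X v = v → T v = (r : F) • v := by
    intro v hv
    have hpowv : ∀ i : ℕ, (X ^ i) v = v := by
      intro i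
      induction i with
      | zero => simp
      | succ i ih =>
        rw [pow_succ, Module.End.mul_apply, hv, ih]
    rw [hT, LinearMap.sum_apply]
    simp only [hpowv, Finset.sum_const, Finset.card_range, Nat.cast_smul_eq_nsmul]
  have hker : LinearMap.ker T = ⊤ := by
    apply hdimW
    · intro w hw
      rw [LinearMap.mem_ker] at hw ⊢
      have := congrArg (fun A => A w) hCT.eq
      simp only [Module.End.mul_apply, hw, map_zero] at this
      exact this
    · intro w hw hfx
      rw [LinearMap.mem_ker, hTfix w hfx] at hw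
      exact (smul_eq_zero.1 hw).resolve_left hr0
    · intro hbot
      have hinj : Function.Injective T := LinearMap.ker_eq_bot.1 hbot
      apply hX1
      have h1 : X - 1 = 0 := by
        ext v
        apply hinj
        have := congrArg (fun A => A v) hTX
        simp only [Module.End.mul_apply] at this
        rw [this]
        simp
      exact sub_eq_zero.1 h1
  have hnofix : ∀ v, X v = v → v = 0 := by
    intro v hv
    have h1 : T v = 0 := LinearMap.mem_ker.1 (by rw [hker]; trivial)
    rw [hTfix v hv] at h1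
    exact (smul_eq_zero.1 h1).resolve_left hr0
  have hirr : ∀ W : Submodule F K, (∀ w ∈ W, X w ∈ W) → W ≠ ⊥ → W = ⊤ :=
    fun W hW hne => hdimW W hW (fun w _ h => hnofix w h) hne
  -- the minimal polynomial
  have hint : IsIntegral F X := Algebra.IsIntegral.isIntegral X
  obtain ⟨m, hm⟩ : ∃ m, m = minpoly F X := ⟨_, rfl⟩
  have hm0 : m ≠ 0 := by
    rw [hm]
    exact minpoly.ne_zero hint
  have hmX : aeval X m = 0 := by
    rw [hm]
    exact minpoly.aeval F X
  have hmirr : Irreducible m := by
    rw [irreducible_iff]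
    refine ⟨by rw [hm]; exact minpoly.not_isUnit F X, ?_⟩
    intro a b hab
    have hA : aeval X a * aeval X b = 0 := by rw [← map_mul, ← hab, hmX]
    have hunit : ∀ {c d : F[X]}, m = c * d → aeval X d = 0 → IsUnit c := by
      intro c d hcd hd
      have h1 : m ∣ d := by
        rw [hm]
        exact minpoly.dvd F X hd
      obtain ⟨e, rfl⟩ := h1
      have h2 : m * (1 - c * e) = 0 := by
        have : m = c * (m * e) := hcd
        linear_combination this
      have h3 := (mul_eq_zero.1 h2).resolve_left hm0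
      exact IsUnit.of_mul_eq_one e (by linear_combination -h3)
    have hk : LinearMap.ker (aeval X a) = ⊥ ∨ LinearMap.ker (aeval X a) = ⊤ := by
      by_cases h0 : LinearMap.ker (aeval X a) = ⊥
      · exact Or.inl h0
      · refine Or.inr (hirr _ ?_ h0)
        intro w hw
        rw [LinearMap.mem_ker] at hw ⊢
        have := congrArg (fun A => A w) (commute_aeval (Commute.refl X) a).eq
        simp only [Module.End.mul_apply, hw, map_zero] at this
        exact this.symm
    rcases hk with h0 | h0
    · left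
      have hinj : Function.Injective (aeval X a : Module.End F K) := LinearMap.ker_eq_bot.1 h0
      refine hunit hab ?_
      ext v
      apply hinj
      have := congrArg (fun A => A v) hA
      simp only [Module.End.mul_apply] at this
      rw [this]
      simp
    · right
      refine hunit (c := b) (d := a) (by rw [hab, mul_comm]) ?_
      ext v
      have : v ∈ LinearMap.ker (aeval X a : Module.End F K) := by rw [h0]; trivial
      simpa using this
  haveI : Fact (Irreducible m) := ⟨hmirr⟩
  -- the field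
  have hid : ∀ a : F[X], a ∈ Ideal.span {m} → aeval X a = 0 := by
    intro a ha
    obtain ⟨c, rfl⟩ := Ideal.mem_span_singleton.1 ha
    rw [map_mul, hmX, zero_mul]
  obtain ⟨Φ, hΦ⟩ : ∃ Φ : AdjoinRoot m →ₐ[F] Module.End F K, Φ = Ideal.Quotient.liftₐ (Ideal.span {m}) (aeval X) hid := ⟨_, rfl⟩
  have hΦmk : ∀ p, Φ (AdjoinRoot.mk m p) = aeval X p := by
    intro p
    rw [hΦ]
    exact Ideal.Quotient.liftₐ_apply _ _ _ _
  have hΦr : Φ (AdjoinRoot.root m) = X := by
    rw [← AdjoinRoot.mk_X, hΦmk, aeval_X]
  obtain ⟨v₀, hv₀⟩ : ∃ v₀ : K, v₀ = 1 := ⟨_, rfl⟩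
  have hv₀0 : v₀ ≠ 0 := by rw [hv₀]; exact one_ne_zero
  let ψ₀ : AdjoinRoot m →ₗ[F] K :=
    { toFun := fun l => Φ l v₀
      map_add' := fun a b => by rw [map_add]; rfl
      map_smul' := fun c a => by rw [map_smul]; rfl }
  have hψ₀ : ∀ l, ψ₀ l = Φ l v₀ := fun _ => rfl
  have hψinj : Function.Injective ψ₀ := by
    rw [← LinearMap.ker_eq_bot, LinearMap.ker_eq_bot']
    intro l hl
    by_contra hl0
    apply hv₀0
    have h1 : Φ l⁻¹ * Φ l = 1 := by rw [← map_mul, inv_mul_cancel₀ hl0, map_one]
    have h2 := congrArg (fun A => A v₀) h1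
    simp only [Module.End.mul_apply] at h2
    rw [← hψ₀ l, hl, map_zero] at h2
    exact h2.symm
  have hψsurj : Function.Surjective ψ₀ := by
    rw [← LinearMap.range_eq_top]
    apply hirr
    · rintro _ ⟨l, rfl⟩
      refine ⟨AdjoinRoot.root m * l, ?_⟩
      rw [hψ₀, hψ₀, map_mul, hΦr]
      rfl
    · intro h0
      have h1 : ψ₀ 1 ∈ LinearMap.range ψ₀ := ⟨1, rfl⟩
      rw [h0, Submodule.mem_bot, hψ₀, map_one] at h1
      exact hv₀0 h1
  let e₀ : AdjoinRoot m ≃ₗ[F] K := LinearEquiv.ofBijective ψ₀ ⟨hψinj, hψsurj⟩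
  have hL : finrank F (AdjoinRoot m) = n := by rw [e₀.finrank_eq, hdim]
  obtain ⟨p, hcp⟩ := CharP.exists F
  haveI := hcp
  haveI : Fact p.Prime := ⟨CharP.char_is_prime F p⟩
  haveI : NeZero n := ⟨by omega⟩
  let φ : K ≃ₐ[F] AdjoinRoot m :=
    (FiniteField.algEquivExtension F p n K hdim).trans (FiniteField.algEquivExtension F p n (AdjoinRoot m) hL).symm
  let e : K ≃ₗ[F] K := φ.toLinearEquiv.trans e₀
  have he : ∀ a, e a = Φ (φ a) v₀ := fun _ => rfl
  let g : (Module.End F K)ˣ :=
    { val := (e.symm : K →ₗ[F] K)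
      inv := (e : K →ₗ[F] K)
      val_inv := by
        ext w
        simp
      inv_val := by
        ext w
        simp }
  have hg : ∀ w, (g : Module.End F K) w = e.symm w := fun _ => rfl
  have hginv : ∀ w, ((g⁻¹ : (Module.End F K)ˣ) : Module.End F K) w = e w := fun _ => rfl
  refine ⟨g, ?_⟩
  -- every element of `U` is a multiplication
  have hUmem : ∀ u ∈ U, ∃ a : K, a ≠ 0 ∧ ∀ w, (u : Module.End F K) (e w) = e (a * w) := by
    intro u hu
    have hcomX : Commute (u : Module.End F K) X := by
      have h1 : (⟨u, hu⟩ : U) * x = x * ⟨u, hu⟩ := hU.is_comm.comm _ _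
      have h2 := congrArg (fun y : U => ((y : (Module.End F K)ˣ) : Module.End F K)) h1
      rw [hX]
      exact h2
    have hcomΦ : ∀ l, Commute (u : Module.End F K) (Φ l) := by
      intro l
      induction l using AdjoinRoot.induction_on with
      | ih p =>
        rw [hΦmk]
        exact commute_aeval hcomX p
    obtain ⟨a₀, ha₀⟩ : ∃ a₀, e a₀ = (u : Module.End F K) v₀ := ⟨e.symm ((u : Module.End F K) v₀), by simp⟩
    have key : ∀ w, (u : Module.End F K) (e w) = e (a₀ * w) := by
      intro w
      have h1 := congrArg (fun A => A v₀) (hcomΦ (φ w)).eq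
      simp only [Module.End.mul_apply] at h1
      rw [he, h1, ← ha₀, he, he, mul_comm a₀ w, map_mul φ, map_mul Φ]
      rfl
    refine ⟨a₀, ?_, key⟩
    rintro rfl
    have h0 : (u : Module.End F K) = 0 := by
      ext w
      have := key (e.symm w)
      simpa using this
    exact u.ne_zero h0
  have hle : U.map (MulAut.conj g).toMonoidHom ≤
      (Units.map ((Algebra.lmul F K : K →ₐ[F] Module.End F K) : K →* Module.End F K)).range := by
    rintro _ ⟨u, hu, rfl⟩
    obtain ⟨a, ha, hua⟩ := hUmem u hu
    refine ⟨Units.mk0 a ha, ?_⟩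
    apply Units.ext
    ext w
    show a * w = e.symm ((u : Module.End F K) (e w))
    rw [hua, e.symm_apply_apply]
  have hlm : Function.Injective (Units.map ((Algebra.lmul F K : K →ₐ[F] Module.End F K) : K →* Module.End F K)) := by
    apply Units.map_injective
    exact Algebra.lmul_injective (R := F) (A := K)
  have hcr : Nat.card (Units.map ((Algebra.lmul F K : K →ₐ[F] Module.End F K) : K →* Module.End F K)).range = Fintype.card K - 1 := by
    rw [← Nat.card_congr (MonoidHom.ofInjective hlm).toEquiv, Nat.card_eq_fintype_card, Fintype.card_units]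
  haveI : Finite (Units.map ((Algebra.lmul F K : K →ₐ[F] Module.End F K) : K →* Module.End F K)).range :=
    Nat.finite_of_card_ne_zero (by rw [hcr]; omega)
  refine Subgroup.eq_of_le_of_card_ge hle ?_
  rw [hcr, Subgroup.card_map_of_injective (MulAut.conj g).injective, hcard]

end Cfsg.Agent.Lib.Geo
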